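import Mathlib
import Cfsg.Agent.Chev.SzPart
import Cfsg.Agent.Chev.SzLie

/-!
# The Bray-Wilson-Wilson sequence `s₁ = x`, `s_{n+1} = [y⁻¹ s_n y, s_n⁻¹]`

It is not a law in `L₂(q)` (`q ≥ 4`), `L₃(3)`, `Sz(q)`: in each case an explicit invariant set
for `s ↦ [y⁻¹ s y, s⁻¹]` avoiding the identity (`y` an involution) is given.
-/

set_option autoImplicit false

namespace Cfsg.Agent.NG.Bww

open Matrix

section General

variable {G H : Type*} [Group G] [Group H]

/-- One step. -/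
def step (y s : G) : G := (y⁻¹ * s * y) * (s⁻¹) * (y⁻¹ * s * y)⁻¹ * (s⁻¹)⁻¹

/-- The sequence. -/
def sq (x y : G) (n : ℕ) : G := @Nat.rec (fun _ => G) x (fun _ s => step y s) n

theorem sq_succ (x y : G) (n : ℕ) : sq x y (n + 1) = step y (sq x y n) := rfl

theorem map_step (f : G →* H) (y s : G) : f (step y s) = step (f y) (f s) := by
  simp [step]

theorem map_sq (f : G →* H) (x y : G) (n : ℕ) : f (sq x y n) = sq (f x) (f y) n := by
  induction n with
  | zero => rfl
  | succ n ih => rw [sq_succ, sq_succ, map_step, ih]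

/-- The `n`-th term is a law. -/
def Law (G : Type*) [Group G] (n : ℕ) : Prop := ∀ x y : G, sq x y n = 1

theorem Law.of_surjective {n : ℕ} (h : Law G n) (f : G →* H) (hf : Function.Surjective f) :
    Law H n := by
  intro x y
  obtain ⟨x, rfl⟩ := hf x
  obtain ⟨y, rfl⟩ := hf y
  rw [← map_sq, h, map_one]

theorem Law.of_injective {n : ℕ} (h : Law H n) (f : G →* H) (hf : Function.Injective f) :
    Law G n := fun x y => hf (by rw [map_sq, h, map_one])

theorem sq_mem_derivedSeries (x y : G) (n : ℕ) : sq x y n ∈ derivedSeries G n := by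
  induction n with
  | zero => exact Subgroup.mem_top _
  | succ n ih =>
    rw [sq_succ, derivedSeries_succ]
    have h1 : y⁻¹ * sq x y n * y ∈ derivedSeries G n := by
      simpa using (derivedSeries_normal G n).conj_mem _ ih y⁻¹
    exact Subgroup.commutator_mem_commutator h1 (inv_mem ih)

theorem exists_law [h : Group.IsSolvable G] : ∃ n, Law G n := by
  obtain ⟨n, hn⟩ := h
  exact ⟨n, fun x y => by simpa [hn] using sq_mem_derivedSeries x y n⟩

theorem not_law (f : G →* H) (y : G) (U : G → Prop) (hU : ∀ u, U u → U (step y u))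
    (h1 : ∀ u, U u → f u ≠ 1) {x : G} (hx : U x) (n : ℕ) : ¬ Law H n := by
  intro h
  have : ∀ k, U (sq x y k) := by
    intro k
    induction k with
    | zero => exact hx
    | succ k ih => exact hU _ ih
  exact h1 _ (this n) (by rw [map_sq, h])

end General

/-! ### `L₂(q)` -/

section SL2

variable {F : Type*} [Field F]

/-- The element of order four. -/
def y0 (F : Type*) [Field F] : Matrix.SpecialLinearGroup (Fin 2) F :=
  ⟨!![0, 1; -1, 0], by simp [Matrix.det_fin_two]⟩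

/-- The trace. -/
def ta (u : Matrix.SpecialLinearGroup (Fin 2) F) : F := u 0 0 + u 1 1

/-- The skew part. -/
def tb (u : Matrix.SpecialLinearGroup (Fin 2) F) : F := u 0 1 - u 1 0

/-- The invariant modulo squares. -/
def tn (u : Matrix.SpecialLinearGroup (Fin 2) F) : F := 4 - ta u ^ 2 - tb u ^ 2

theorem step_formulas (u : Matrix.SpecialLinearGroup (Fin 2) F) :
    ta (step (y0 F) u) = 2 - tn u * tb u ^ 2 ∧ tb (step (y0 F) u) = tn u * ta u * tb u := by
  have hd : u 0 0 * u 1 1 - u 0 1 * u 1 0 = 1 := by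
    rw [← Matrix.det_fin_two]
    exact u.det_coe
  have hy : ((y0 F : Matrix.SpecialLinearGroup (Fin 2) F) : Matrix (Fin 2) (Fin 2) F) =
    !![0, 1; -1, 0] := rfl
  simp only [ta, tb, tn, step, inv_inv, _root_.mul_inv_rev, Matrix.SpecialLinearGroup.coe_mul,
    Matrix.SpecialLinearGroup.coe_inv, Matrix.adjugate_fin_two, hy, Matrix.mul_apply,
    Fin.sum_univ_two]
  simp
  constructor
  · linear_combination (2 * (u 0 0 * u 1 1 - u 0 1 * u 1 0) + 2 - 4 * (u 0 1 - u 1 0) ^ 2) * hd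
  · linear_combination (4 * (u 0 0 + u 1 1) * (u 0 1 - u 1 0)) * hd

theorem tn_step (u : Matrix.SpecialLinearGroup (Fin 2) F) :
    tn (step (y0 F) u) = tn u * (tb u * (2 - tn u)) ^ 2 := by
  obtain ⟨h1, h2⟩ := step_formulas u
  rw [tn, h1, h2]
  have : ta u ^ 2 = 4 - tb u ^ 2 - tn u := by rw [tn]; ring
  linear_combination (-(tn u) ^ 2 * tb u ^ 2) * this

theorem mk_ne_one {u : Matrix.SpecialLinearGroup (Fin 2) F} (h : tb u ≠ 0) :
    QuotientGroup.mk' (Subgroup.center (Matrix.SpecialLinearGroup (Fin 2) F)) u ≠ 1 := by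
  intro h1
  rw [QuotientGroup.mk'_apply, QuotientGroup.eq_one_iff,
    Matrix.SpecialLinearGroup.mem_center_iff] at h1
  obtain ⟨r, -, hr⟩ := h1
  apply h
  have h01 := congrFun (congrFun hr 0) 1
  have h10 := congrFun (congrFun hr 1) 0
  simp at h01 h10
  rw [tb, ← h01, ← h10, sub_zero]

/-- The starting elements. -/
def u0 (t s : F) (ht : t ≠ 0) : Matrix.SpecialLinearGroup (Fin 2) F :=
  ⟨!![0, t; -t⁻¹, s], by simp [Matrix.det_fin_two, ht]⟩

theorem ta_u0 (t s : F) (ht : t ≠ 0) : ta (u0 t s ht) = s := by simp [ta, u0]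

theorem tb_u0 (t s : F) (ht : t ≠ 0) : tb (u0 t s ht) = t + t⁻¹ := by simp [tb, u0]

theorem tn_u0 (t s : F) (ht : t ≠ 0) : tn (u0 t s ht) = -(s ^ 2 + (t - t⁻¹) ^ 2) := by
  rw [tn, ta_u0, tb_u0]
  field_simp
  ring

theorem exists_pow_ne [Fintype F] {k : ℕ} (hk : 1 < k) (h : k < Fintype.card F) :
    ∃ t : F, t ^ k ≠ t := by
  classical
  by_contra hc
  push Not at hc
  have h0 : (Polynomial.X ^ k - Polynomial.X : Polynomial F) ≠ 0 :=
    FiniteField.X_pow_card_sub_X_ne_zero F hk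
  have h1 : (Finset.univ : Finset F).val ⊆ (Polynomial.X ^ k - Polynomial.X : Polynomial F).roots := by
    intro t _
    rw [Polynomial.mem_roots h0]
    simp [hc t]
  have h2 := Polynomial.card_le_degree_of_subset_roots h1
  rw [FiniteField.X_pow_card_sub_X_natDegree_eq F hk, Finset.card_univ] at h2
  omega

theorem not_law_even [Fintype F] (h2 : (2 : F) = 0) (h4 : 4 ≤ Fintype.card F) (n : ℕ) :
    ¬ Law (ProjectiveSpecialLinearGroup (Fin 2) F) n := by
  obtain ⟨t, ht⟩ := exists_pow_ne (F := F) (k := 2) (by norm_num) (by omega)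
  have t0 : t ≠ 0 := by rintro rfl; simp at ht
  have t1 : t + t⁻¹ ≠ 0 := by
    intro h
    have : (t - 1) ^ 2 = 0 := by
      have h' : t * (t + t⁻¹) = 0 := by rw [h, mul_zero]
      rw [mul_add, mul_inv_cancel₀ t0] at h'
      linear_combination h' - t * h2
    apply ht
    rw [sub_eq_zero.mp (pow_eq_zero_iff two_ne_zero |>.mp this), one_pow]
  have hn : ∀ u : Matrix.SpecialLinearGroup (Fin 2) F, tn u = (ta u + tb u) ^ 2 := fun u => by
    rw [tn]
    linear_combination (2 - ta u ^ 2 - tb u ^ 2 - ta u * tb u) * h2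
  refine not_law (QuotientGroup.mk' _) (y0 F) (fun u => ta u ≠ 0 ∧ tb u ≠ 0 ∧ tn u ≠ 0) ?_
    (fun u hu => mk_ne_one hu.2.1) (x := u0 t t t0) ?_ n
  · rintro u ⟨ha, hb, hc⟩
    obtain ⟨e1, e2⟩ := step_formulas u
    rw [e1, e2, tn_step, h2]
    refine ⟨by simp [hb, hc], by simp [ha, hb, hc], by simp [hb, hc]⟩
  · refine ⟨by rwa [ta_u0], by rwa [tb_u0], ?_⟩
    rw [hn, ta_u0, tb_u0, show t + (t + t⁻¹) = t⁻¹ by linear_combination t * h2]
    simp [t0]

theorem exists_start [Fintype F] (h2 : (2 : F) ≠ 0) (h4 : 4 ≤ Fintype.card F) :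
    ∃ u : Matrix.SpecialLinearGroup (Fin 2) F, ta u ≠ 0 ∧ tb u ≠ 0 ∧ ¬ IsSquare (2 * tn u) := by
  classical
  have hchar : ringChar F ≠ 2 := by
    intro h
    apply h2
    have := ringChar.Nat.cast_ringChar (R := F)
    rwa [h] at this
  by_cases hs : IsSquare (-2 : F)
  · obtain ⟨r, hr⟩ := hs
    have hodd := FiniteField.odd_card_of_char_ne_two hchar
    obtain ⟨t, ht⟩ : ∃ t : F, t ^ 5 ≠ t := by
      by_cases h5 : 5 < Fintype.card F
      · exact exists_pow_ne (by norm_num) h5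
      · have h5' : Fintype.card F = 5 := by omega
        exfalso
        have r0 : r ≠ 0 := by rintro rfl; exact h2 (by simpa using hr)
        have e1 := FiniteField.pow_card_sub_one_eq_one r r0
        have e2 := FiniteField.cast_card_eq_zero F
        rw [h5'] at e1 e2
        norm_num at e1 e2
        have e3 : (3 : F) = 0 := by linear_combination (r * r - 2) * hr + e1
        exact one_ne_zero (α := F) (by linear_combination 2 * e3 - e2)
    have t0 : t ≠ 0 := by rintro rfl; simp at ht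
    have t1 : t + t⁻¹ ≠ 0 := by
      intro h
      have h' : t * (t + t⁻¹) = 0 := by rw [h, mul_zero]
      rw [mul_add, mul_inv_cancel₀ t0] at h'
      exact ht (by linear_combination (t ^ 3 - t) * h')
    have t2 : t - t⁻¹ ≠ 0 := by
      intro h
      have h' : t * (t - t⁻¹) = 0 := by rw [h, mul_zero]
      rw [mul_sub, mul_inv_cancel₀ t0] at h'
      exact ht (by linear_combination (t ^ 3 + t) * h')
    obtain ⟨ν, hν⟩ := FiniteField.exists_nonsquare hchar
    obtain ⟨a, b, hab⟩ : ∃ a b : F, a ^ 2 + b ^ 2 = ν := by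
      obtain ⟨a, b, h⟩ := FiniteField.exists_root_sum_quadratic (R := F)
        (f := Polynomial.X ^ 2) (g := Polynomial.X ^ 2 - Polynomial.C ν)
        (Polynomial.degree_X_pow 2) (Polynomial.degree_X_pow_sub_C (by norm_num) _) hodd
      exact ⟨a, b, by simp at h; linear_combination h⟩
    have a0 : a ≠ 0 := by
      rintro rfl
      exact hν ⟨b, by linear_combination -hab⟩
    have b0 : b ≠ 0 := by
      rintro rfl
      exact hν ⟨a, by linear_combination -hab⟩
    have r0 : r ≠ 0 := by rintro rfl; exact h2 (by simpa using hr)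
    refine ⟨u0 t ((t - t⁻¹) * a / b) t0, by rw [ta_u0]; simp [t2, a0, b0], by rwa [tb_u0], ?_⟩
    rw [tn_u0]
    rintro ⟨c, hc⟩
    apply hν
    refine ⟨c * b / (r * (t - t⁻¹)), ?_⟩
    generalize t - t⁻¹ = d at *
    field_simp at hc ⊢
    linear_combination hc - (d ^ 2 * ν) * hr + (2 * d ^ 2) * hab
  · refine ⟨u0 1 1 one_ne_zero, by simp [ta_u0], by rw [tb_u0]; simpa [one_add_one_eq_two], ?_⟩
    rw [tn_u0]
    simpa using hs

theorem not_law_psl2 [Fintype F] (h4 : 4 ≤ Fintype.card F) (n : ℕ) :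
    ¬ Law (ProjectiveSpecialLinearGroup (Fin 2) F) n := by
  by_cases h2 : (2 : F) = 0
  · exact not_law_even h2 h4 n
  obtain ⟨x, hx⟩ := exists_start h2 h4
  refine not_law (QuotientGroup.mk' _) (y0 F)
    (fun u => ta u ≠ 0 ∧ tb u ≠ 0 ∧ ¬ IsSquare (2 * tn u)) ?_ (fun u hu => mk_ne_one hu.2.1) hx n
  rintro u ⟨ha, hb, hc⟩
  obtain ⟨e1, e2⟩ := step_formulas u
  have c0 : tn u ≠ 0 := by
    intro h
    exact hc ⟨0, by simp [h]⟩
  have c1 : 2 - tn u ≠ 0 := by
    intro h
    exact hc ⟨2, by linear_combination (-2) * h⟩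
  refine ⟨?_, by rw [e2]; simp [ha, hb, c0], ?_⟩
  · rw [e1]
    intro h
    exact hc ⟨2 / tb u, by field_simp; linear_combination -h⟩
  · rw [tn_step]
    rintro ⟨c, h⟩
    exact hc ⟨c / (tb u * (2 - tn u)), by field_simp; linear_combination h⟩

end SL2

/-! ### `Sz(q)` -/

section Sz

open Cfsg.Agent.Chev.Sz

variable {F : Type*} [Field F] {m : ℕ} [SzF F m]

theorem mul_self_of_swap {g : Cfsg.Sz F m} (h1 : g • (inf : Ov F m) ≠ inf)
    (h2 : g • g • (inf : Ov F m) = inf) : g * g = 1 := by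
  obtain ⟨x, hx1, hx2⟩ := exists_smul_pair h1.symm
  have i1 : x⁻¹ • (inf : Ov F m) = inf := inv_smul_eq_iff.mpr hx1.symm
  have i2 : x⁻¹ • g • (inf : Ov F m) = pt 0 0 := inv_smul_eq_iff.mpr hx2.symm
  obtain ⟨k, hk⟩ := exists_he_of_fix (g := we * (x⁻¹ * g * x))
    (by rw [mul_smul, mul_smul, mul_smul, hx1, i2, we_smul_zero])
    (by rw [mul_smul, mul_smul, mul_smul, hx2, h2, i1, we_smul_inf])
  have e : x⁻¹ * g * x = we * he k := by rw [← hk, we_mul_we_mul]
  rw [← inv_conj_eq_one (x := x), show x⁻¹ * (g * g) * x = x⁻¹ * g * x * (x⁻¹ * g * x) by group, e,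
    ← mul_assoc, we_conj_he, ← he_mul, inv_mul_cancel, he_one]

theorem step_eq {G : Type*} [Group G] {y : G} (hy : y * y = 1) (u : G) :
    step y u = y * (u * y * u⁻¹) * (y * (u⁻¹ * y * u)) := by
  have : y⁻¹ = y := inv_eq_of_mul_eq_one_right hy
  simp only [step, _root_.mul_inv_rev, inv_inv, this, mul_assoc]

theorem step_not_fix {u : Cfsg.Sz F m} (h1 : u • (inf : Ov F m) ≠ inf)
    (h2 : u * ue 0 1 * (u * ue 0 1) ≠ 1) : step (ue 0 1) u • (inf : Ov F m) ≠ inf := by
  intro h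
  apply h2
  set y : Cfsg.Sz F m := ue 0 1 with hydef
  have hy : y * y = 1 := ue_zero_mul_self (m := m) (1 : F)
  have hyi : y⁻¹ = y := inv_eq_of_mul_eq_one_right hy
  have hy0 : y ≠ 1 := by simp [hydef]
  have hyS : y ∈ sylU F m := ue_mem_sylU _ _
  obtain ⟨a, b, c, d, k, hu⟩ := bruhat h1
  obtain ⟨n, s, t, hs, ht, hn, hni, rfl⟩ : ∃ n s t : Cfsg.Sz F m, s ∈ sylU F m ∧ t ∈ sylU F m ∧
      n * n = 1 ∧ n • (inf : Ov F m) ≠ inf ∧ u = s * n * t := by
    refine ⟨we * he k, ue a b, (he k)⁻¹ * ue c d * (he k)⁻¹⁻¹, ue_mem_sylU _ _,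
      conj_mem_sylU (inv_mem (torH_le_borel (he_mem_torH k))) (ue_mem_sylU _ _), ?_, ?_, ?_⟩
    · rw [← mul_assoc, we_conj_he, ← he_mul, inv_mul_cancel, he_one]
    · simp [mul_smul]
    · rw [hu]; group
  have hn' : n⁻¹ = n := inv_eq_of_mul_eq_one_right hn
  have cy : ∀ g ∈ sylU F m, g * y = y * g := by
    rintro _ ⟨c, d, rfl⟩
    exact (ue_zero_comm 1 c d).symm
  have e1 : s * n * t * y * (s * n * t)⁻¹ = s * (n * y * n) * s⁻¹ := by
    rw [mul_assoc (s * n), cy t ht]
    simp only [_root_.mul_inv_rev, hn', mul_assoc, mul_inv_cancel_left]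
  have e2 : (s * n * t)⁻¹ * y * (s * n * t) = t⁻¹ * (n * y * n) * t := by
    rw [mul_assoc _ y, mul_assoc s, ← mul_assoc y, ← cy s hs]
    simp only [_root_.mul_inv_rev, hn', mul_assoc, inv_mul_cancel_left]
  have fs : ∀ g ∈ sylU F m, g • (inf : Ov F m) = inf := fun g hg => sylU_le_borel hg
  set z := n * y * n with hz
  have hzi : z⁻¹ = z := by
    rw [hz]; simp only [_root_.mul_inv_rev, hn', hyi, mul_assoc]
  have hzP : z • (inf : Ov F m) ≠ inf := by
    intro h3
    rw [hz, mul_smul, mul_smul, ← eq_inv_smul_iff, hn'] at h3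
    exact hni (eq_inf_of_mem_sylU hyS hy0 h3)
  rw [step_eq hy, e1, e2] at h
  simp only [mul_smul, fs t ht] at h
  rw [← eq_inv_smul_iff, fs _ (inv_mem hyS), ← eq_inv_smul_iff, fs _ (inv_mem hs),
    ← eq_inv_smul_iff, hzi, ← mul_smul, ← mul_smul] at h
  have h4 : s⁻¹ * y * t⁻¹ = 1 := by
    by_contra h5
    exact hzP (eq_inf_of_mem_sylU (mul_mem (mul_mem (inv_mem hs) hyS) (inv_mem ht)) h5 h)
  have h5 : y = s * t := by
    have : y = s * (s⁻¹ * y * t⁻¹) * t := by group
    rw [this, h4, mul_one]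
  have h6 : t * y * s = 1 := by
    have h7 : t * s = y := by
      have := cy s hs
      rw [h5] at this ⊢
      exact mul_left_cancel (a := s) (by rw [this, mul_assoc])
    rw [mul_assoc, ← cy s hs, ← mul_assoc, h7, hy]
  calc s * n * t * y * (s * n * t * y) = s * n * (t * y * s) * n * (t * y * s) * s⁻¹ := by group
    _ = 1 := by rw [h6, mul_one, mul_one, mul_assoc s, hn]; group

/-- The invariant set. -/
def Good (u : Cfsg.Sz F m) : Prop :=
  u • (inf : Ov F m) ≠ inf ∧ u * ue 0 1 * (u * ue 0 1) ≠ 1 ∧ Odd (orderOf u)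

theorem Good.step {u : Cfsg.Sz F m} (h : Good u) : Good (step (ue 0 1) u) := by
  obtain ⟨h1, h2, h3⟩ := h
  refine ⟨step_not_fix h1 h2, ?_, ?_⟩
  all_goals
    set y : Cfsg.Sz F m := ue 0 1 with hydef
    have hy : y * y = 1 := ue_zero_mul_self (m := m) (1 : F)
    have hyi : y⁻¹ = y := inv_eq_of_mul_eq_one_right hy
    have hy0 : y ≠ 1 := by simp [hydef]
    have hyS : y ∈ sylAt (inf : Ov F m) := sylAt_inf (F := F) (m := m) ▸ ue_mem_sylU _ _
    have hc : ∀ g : Cfsg.Sz F m, g * y * g⁻¹ ∈ sylAt (g • (inf : Ov F m)) ∧ g * y * g⁻¹ ≠ 1 ∧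
        g * y * g⁻¹ * (g * y * g⁻¹) = 1 := fun g =>
      ⟨by rw [mem_sylAt_smul]; simpa [mul_assoc] using hyS, by simpa using hy0, by
        rw [show g * y * g⁻¹ * (g * y * g⁻¹) = g * (y * y) * g⁻¹ by group, hy]; group⟩
  · intro h4
    obtain ⟨hA, hA1⟩ := odd_orderOf_mul h1.symm hyS (hc u).1 hy0 (hc u).2.1 hy (hc u).2.2
    set A := y * (u * y * u⁻¹) with hAdef
    set B := y * (u⁻¹ * y * u) with hBdef
    have iA : y * A * y = A⁻¹ := by
      rw [hAdef, ← mul_assoc, hy]; simp only [_root_.mul_inv_rev, inv_inv, hyi, mul_assoc, one_mul]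
    have iB : y * B * y = B⁻¹ := by
      rw [hBdef, ← mul_assoc, hy]; simp only [_root_.mul_inv_rev, inv_inv, hyi, mul_assoc, one_mul]
    have hAB : B * A = A * B := by
      rw [step_eq hy] at h4
      have e : A * B * y * (A * B * y) = A * B * (y * A * y) * (y * B * y) := by
        calc _ = A * B * (y * A * (y * y) * B * y) := by rw [hy]; group
          _ = _ := by group
      rw [e, iA, iB] at h4
      calc B * A = A * B * A⁻¹ * B⁻¹ * (B * A) := by rw [h4, one_mul]
        _ = _ := by group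
    obtain ⟨T, hT, hAT⟩ := exists_isTorus_of_odd hA
    have hBT : B ∈ T := by
      rw [← hT.centralizer_eq hAT hA1, Subgroup.mem_centralizer_singleton_iff]
      exact hAB
    have hu : u⁻¹ ∈ Subgroup.normalizer (T : Set (Cfsg.Sz F m)) := by
      refine hT.isPart.mem_normalizer_of_conj hAT hA1 ?_
      have : u⁻¹ * A * u⁻¹⁻¹ = B⁻¹ := by
        rw [hAdef, hBdef]
        simp only [_root_.mul_inv_rev, inv_inv, hyi, mul_assoc, inv_mul_cancel, mul_one]
      rw [this]
      exact inv_mem hBT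
    have hu' : u ∈ Subgroup.normalizer (T : Set (Cfsg.Sz F m)) := by simpa using inv_mem hu
    have hyN : y ∈ Subgroup.normalizer (T : Set (Cfsg.Sz F m)) :=
      hT.isPart.mem_normalizer_of_conj hAT hA1 (by rw [hyi, iA]; exact inv_mem hAT)
    have huT : u ∈ T := by
      have hN : (T.subgroupOf (Subgroup.normalizer (T : Set (Cfsg.Sz F m)))).Normal :=
        Subgroup.normal_in_normalizer
      have h5 : (T.subgroupOf (Subgroup.normalizer (T : Set (Cfsg.Sz F m)))).index ∣ 4 := by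
        have h6 := hT.card_normalizer_dvd
        rw [← Subgroup.index_mul_card (T.subgroupOf _),
          Nat.card_congr (Subgroup.subgroupOfEquivOfLe Subgroup.le_normalizer).toEquiv] at h6
        exact Nat.dvd_of_mul_dvd_mul_right Nat.card_pos h6
      obtain ⟨j, hj⟩ := h5
      have h7 : u ^ 4 ∈ T := by
        have := Subgroup.pow_index_mem
          (H := T.subgroupOf (Subgroup.normalizer (T : Set (Cfsg.Sz F m)))) ⟨u, hu'⟩
        have h11 := pow_mem (Subgroup.mem_subgroupOf.mp this) j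
        rwa [Subgroup.coe_pow, ← pow_mul, ← hj] at h11
      have h8 : (4 : ℕ).Coprime (orderOf u) :=
        Nat.Coprime.pow_left 2 (Nat.coprime_two_left.mpr h3)
      obtain ⟨i, hi⟩ := exists_pow_eq_self_of_coprime h8
      rw [← hi]
      exact pow_mem h7 i
    have h9 : y * u * y⁻¹ ∈ T := (Subgroup.mem_normalizer_iff.mp hyN u).mp huT
    have hcomm : u * (y * u * y⁻¹) = y * u * y⁻¹ * u := by
      have := hT.isCyclic
      exact congrArg Subtype.val (mul_comm' (⟨u, huT⟩ : T) ⟨_, h9⟩)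
    have h10 : u * (y * u * y⁻¹) ≠ 1 := by
      rw [hyi]; simpa only [mul_assoc] using h2
    refine hT.not_mem_sylAt (mul_mem huT h9) h10 inf (mem_sylAt_of_commute hyS hy0 ?_)
    calc u * (y * u * y⁻¹) * y = y * y * (u * y * u) := by rw [hy]; group
      _ = y * (y * u * y⁻¹ * u) := by rw [hyi]; group
      _ = _ := by rw [hcomm]
  · have hne : (y * u) • (inf : Ov F m) ≠ u⁻¹ • inf := by
      intro h4
      refine h2 (mul_self_of_swap ?_ ?_)
      · rwa [mul_smul, hyS.1]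
      · rw [mul_smul, mul_smul, hyS.1, ← mul_smul y, h4, smul_inv_smul]
    have := (odd_orderOf_mul hne (hc (y * u)).1 (hc u⁻¹).1 (hc _).2.1 (hc _).2.1 (hc _).2.2
      (hc _).2.2).1
    rw [step_eq hy]
    convert this using 2
    simp only [_root_.mul_inv_rev, inv_inv, hyi, mul_assoc]

theorem exists_good : ∃ u : Cfsg.Sz F m, Good u := by
  obtain ⟨t, t0, t1⟩ := exists_ne_zero_one F
  have hu : (we * ue 0 t : Cfsg.Sz F m) • (inf : Ov F m) ≠ inf := by simp [mul_smul]
  obtain ⟨P, hP⟩ := exists_mem_sylAt_of_mul_self (we_mul_we (F := F) (m := m))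
  have hPi : P ≠ inf := by
    rintro rfl
    simpa using hP.1
  have key : ∀ b : F, b ≠ 0 → Odd (orderOf (we * ue 0 b : Cfsg.Sz F m)) ∧
      (we * ue 0 b : Cfsg.Sz F m) ≠ 1 := fun b hb =>
    odd_orderOf_mul hPi hP (sylAt_inf (F := F) (m := m) ▸ ue_mem_sylU _ _) we_ne_one
      (by simp [hb]) we_mul_we (ue_zero_mul_self b)
  refine ⟨we * ue 0 t, hu, ?_, (key t t0).1⟩
  rw [mul_assoc we, ue_zero_mul]
  have t2 : t + 1 ≠ 0 := fun h => t1 (by grind)
  obtain ⟨h1, h2⟩ := key _ t2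
  intro h
  have h3 : orderOf (we * ue 0 (t + 1) : Cfsg.Sz F m) ∣ 2 :=
    orderOf_dvd_of_pow_eq_one (by rw [pow_two, h])
  exact h2 (orderOf_eq_one_iff.mp (Nat.eq_one_of_dvd_coprimes
    (Nat.coprime_two_right.mpr h1) dvd_rfl h3))

theorem not_law_sz (n : ℕ) : ¬ Law (Cfsg.Sz F m) n := by
  obtain ⟨x, hx⟩ := exists_good (F := F) (m := m)
  refine not_law (MonoidHom.id _) (ue 0 1) Good (fun u hu => hu.step) ?_ hx n
  rintro u hu rfl
  exact hu.1 (one_smul _ _)

end Sz

/-! ### `L₃(3)` -/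

theorem exists_hom_psl3 {F : Type*} [Field F] [Fintype F] (h : Fintype.card F = 3) :
    ∃ f : Matrix.SpecialLinearGroup (Fin 3) (ZMod 3) →* ProjectiveSpecialLinearGroup (Fin 3) F,
      ∀ u, f u = 1 → u 1 0 = 0 := by
  have : Fact (Nat.Prime 3) := ⟨Nat.prime_three⟩
  have : CharP F 3 := charP_of_card_eq_prime h
  refine ⟨(QuotientGroup.mk' _).comp (Matrix.SpecialLinearGroup.map (ZMod.castHom dvd_rfl F)),
    fun u h1 => ?_⟩
  rw [MonoidHom.comp_apply, QuotientGroup.mk'_apply, QuotientGroup.eq_one_iff,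
    Matrix.SpecialLinearGroup.mem_center_iff] at h1
  obtain ⟨r, -, hr⟩ := h1
  have h10 := congrFun (congrFun hr 1) 0
  apply (ZMod.castHom dvd_rfl F).injective
  rw [map_zero]
  simpa using h10.symm

/-- Explicit elements of `SL₃(3)`. -/
def e3 (i : Fin 4) : Matrix.SpecialLinearGroup (Fin 3) (ZMod 3) :=
  ⟨![!![0, 0, 2; 1, 0, 2; 1, 2, 2], !![1, 1, 0; 1, 0, 0; 0, 0, 2], !![2, 2, 2; 1, 2, 1; 1, 1, 0],
    !![0, 1, 2; 0, 1, 0; 1, 2, 2]] i, by
      rw [Matrix.det_fin_three]
      revert i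
      decide⟩

theorem step_e3 : step (e3 3) (e3 0) = e3 1 ∧ step (e3 3) (e3 1) = e3 2 ∧
    step (e3 3) (e3 2) = e3 0 := by
  decide +kernel

theorem not_law_psl3 {F : Type*} [Field F] [Fintype F] (h : Fintype.card F = 3) (n : ℕ) :
    ¬ Law (ProjectiveSpecialLinearGroup (Fin 3) F) n := by
  obtain ⟨f, hf⟩ := exists_hom_psl3 h
  refine not_law f (e3 3) (fun u => u = e3 0 ∨ u = e3 1 ∨ u = e3 2) ?_ ?_ (Or.inl rfl) n
  · rintro u (rfl | rfl | rfl)
    · exact Or.inr (Or.inl step_e3.1)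
    · exact Or.inr (Or.inr step_e3.2.1)
    · exact Or.inl step_e3.2.2
  · rintro u (rfl | rfl | rfl) h1 <;> exact absurd (hf _ h1) (by decide)

end Cfsg.Agent.NG.Bww
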