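import Mathlib
import Cfsg.Agent.NG.Bww

/-!
# The BGGKPP sequence `v₁ = x⁻²y⁻¹x`, `v_{n+1} = [x v_n x⁻¹, y v_n y⁻¹]`

With `y = x z` the first term is `x⁻² z⁻¹`, and it is a fixed point of the step map iff
`z x z⁻¹ x z = x² z² x²`.  This file: generalities, `L₃(3)` and the matrices for `L₂(q)`.
-/

set_option autoImplicit false

namespace Cfsg.Agent.NG.Bgk

open Matrix

section General

variable {G H : Type*} [Group G] [Group H]

/-- One step. -/
def step (x y v : G) : G := (x * v * x⁻¹) * (y * v * y⁻¹) * (x * v * x⁻¹)⁻¹ * (y * v * y⁻¹)⁻¹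

/-- The sequence. -/
def sq (x y : G) (n : ℕ) : G :=
  @Nat.rec (fun _ => G) (x⁻¹ * x⁻¹ * y⁻¹ * x) (fun _ v => step x y v) n

theorem sq_zero (x y : G) : sq x y 0 = x⁻¹ * x⁻¹ * y⁻¹ * x := rfl

theorem sq_succ (x y : G) (n : ℕ) : sq x y (n + 1) = step x y (sq x y n) := rfl

theorem map_sq (f : G →* H) (x y : G) (n : ℕ) : f (sq x y n) = sq (f x) (f y) n := by
  induction n with
  | zero => simp [sq_zero]
  | succ n ih => rw [sq_succ, sq_succ, ← ih]; simp [step]

/-- The `n`-th term is a law. -/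
def Law (G : Type*) [Group G] (n : ℕ) : Prop := ∀ x y : G, sq x y n = 1

theorem Law.of_surjective {n : ℕ} (h : Law G n) (f : G →* H) (hf : Function.Surjective f) :
    Law H n := by
  intro x y
  obtain ⟨x, rfl⟩ := hf x
  obtain ⟨y, rfl⟩ := hf y
  rw [← map_sq, h, map_one]

theorem Law.of_injective {n : ℕ} (h : Law H n) (f : G →* H) (hf : Function.Injective f) :
    Law G n := fun x y => hf (by rw [map_sq, h, map_one])

theorem sq_mem_derivedSeries (x y : G) (n : ℕ) : sq x y n ∈ derivedSeries G n := by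
  induction n with
  | zero => exact Subgroup.mem_top _
  | succ n ih =>
    rw [sq_succ, derivedSeries_succ]
    exact Subgroup.commutator_mem_commutator ((derivedSeries_normal G n).conj_mem _ ih x)
      ((derivedSeries_normal G n).conj_mem _ ih y)

theorem exists_law [h : Group.IsSolvable G] : ∃ n, Law G n := by
  obtain ⟨n, hn⟩ := h
  exact ⟨n, fun x y => by simpa [hn] using sq_mem_derivedSeries x y n⟩

theorem sq_fixed {x z : G} (h : z * x * z⁻¹ * x * z = x * x * (z * z) * (x * x)) (n : ℕ) :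
    sq x (x * z) n = (z * (x * x))⁻¹ := by
  induction n with
  | zero => rw [sq_zero]; group
  | succ n ih =>
    rw [sq_succ, ih, step]
    calc _ = (x * x * x)⁻¹ * z⁻¹ * (x * x * (z * z) * (x * x)) * z⁻¹ * x⁻¹ := by
          simp only [_root_.mul_inv_rev, inv_inv, mul_assoc, mul_inv_cancel_left,
            inv_mul_cancel_left]
      _ = _ := by rw [← h]; group

theorem not_law (f : G →* H) {x z : G} (h : z * x * z⁻¹ * x * z = x * x * (z * z) * (x * x))
    (h1 : f (z * (x * x)) ≠ 1) (n : ℕ) : ¬ Law H n := by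
  intro hl
  apply h1
  have := hl (f x) (f (x * z))
  rwa [← map_sq, sq_fixed h, map_inv, inv_eq_one] at this

end General

/-! ### `L₃(3)` -/

/-- Explicit elements of `SL₃(3)`. -/
def e3 (i : Fin 3) : Matrix.SpecialLinearGroup (Fin 3) (ZMod 3) :=
  ⟨![!![0, 2, 0; 0, 1, 1; 2, 0, 2], !![0, 1, 0; 2, 0, 1; 2, 1, 2], !![2, 1, 0; 1, 2, 2; 1, 1, 0]] i,
    by
      rw [Matrix.det_fin_three]
      revert i
      decide⟩

theorem rel_e3 : e3 1 * e3 0 * (e3 1)⁻¹ * e3 0 * e3 1 = e3 0 * e3 0 * (e3 1 * e3 1) * (e3 0 * e3 0) ∧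
    e3 1 * (e3 0 * e3 0) = e3 2 := by
  decide +kernel

theorem not_law_psl3 {F : Type*} [Field F] [Fintype F] (h : Fintype.card F = 3) (n : ℕ) :
    ¬ Law (ProjectiveSpecialLinearGroup (Fin 3) F) n := by
  obtain ⟨f, hf⟩ := Bww.exists_hom_psl3 h
  refine not_law f rel_e3.1 ?_ n
  rw [rel_e3.2]
  exact fun h1 => absurd (hf _ h1) (by decide)

/-! ### `L₂(q)` -/

section SL2

variable {F : Type*} [Field F]

theorem not_law_of_conic {t s u a b : F} (h1 : t ^ 2 - t * u - 1 = 0)
    (h2 : t * s * u - s ^ 2 - s - u ^ 2 + 1 = 0)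
    (h3 : a ^ 2 + t * a * b + b ^ 2 - s * a - u * b + 1 = 0) (n : ℕ) :
    ¬ Law (ProjectiveSpecialLinearGroup (Fin 2) F) n := by
  let x : Matrix.SpecialLinearGroup (Fin 2) F := ⟨!![t, -1; 1, 0], by simp [Matrix.det_fin_two]⟩
  let z : Matrix.SpecialLinearGroup (Fin 2) F := ⟨!![a, b; t * a + b - u, s - a], by
    simp only [Matrix.det_fin_two_of]
    linear_combination -h3⟩
  have hx : (x : Matrix (Fin 2) (Fin 2) F) = !![t, -1; 1, 0] := rfl
  have hz : (z : Matrix (Fin 2) (Fin 2) F) = !![a, b; t * a + b - u, s - a] := rfl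
  refine not_law (QuotientGroup.mk' _) (x := x) (z := z) ?_ ?_ n
  · ext i j
    simp only [Matrix.SpecialLinearGroup.coe_mul, Matrix.SpecialLinearGroup.coe_inv, hx, hz,
      Matrix.adjugate_fin_two_of, Matrix.mul_fin_two]
    fin_cases i <;> fin_cases j <;> simp <;> grind
  · intro h
    rw [QuotientGroup.mk'_apply, QuotientGroup.eq_one_iff,
      Matrix.SpecialLinearGroup.mem_center_iff] at h
    obtain ⟨r, hr2, hr⟩ := h
    simp only [Matrix.SpecialLinearGroup.coe_mul, hx, hz, Matrix.mul_fin_two] at hr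
    have h00 := congrFun (congrFun hr 0) 0
    have h01 := congrFun (congrFun hr 0) 1
    have h10 := congrFun (congrFun hr 1) 0
    have h11 := congrFun (congrFun hr 1) 1
    simp at h00 h01 h10 h11 hr2
    clear hr
    have e1 : t ^ 2 * (1 - r) = 1 := by grind
    rcases hr2 with rfl | rfl
    · simp at e1
    · have e2 : 4 * (t ^ 2) ^ 2 + 1 = 0 := by grind
      have e3 : (2 : F) = 0 := by linear_combination e2 - (2 * t ^ 2 + 1) * e1
      exact one_ne_zero (α := F) (by linear_combination t ^ 2 * e3 - e1)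

end SL2

end Cfsg.Agent.NG.Bgk
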