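import Mathlib
import Cfsg.Agent.NG.BgkA

/-!
# The BGGKPP sequence is not a law in `L₂(q)`

Fixed points correspond to points on the curve `k² = (t³ - 4t)² - 4`.
-/

set_option autoImplicit false

namespace Cfsg.Agent.NG.Bgk

open Matrix Finset Polynomial

variable {F : Type*} [Field F] [Fintype F]

theorem not_law_even (h2 : (2 : F) = 0) (h4 : 4 ≤ Fintype.card F) (n : ℕ) :
    ¬ Law (ProjectiveSpecialLinearGroup (Fin 2) F) n := by
  obtain ⟨r, w, r0, hr⟩ : ∃ r w : F, r ≠ 0 ∧ r ^ 3 = w ^ 2 + w := by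
    by_cases h : ∃ w : F, w ^ 2 + w = 1
    · obtain ⟨w, hw⟩ := h
      exact ⟨1, w, one_ne_zero, by rw [hw, one_pow]⟩
    have hinj : Function.Injective fun x : F => x ^ 3 := by
      intro x y hxy
      by_contra hne
      have hy : y ≠ 0 := by
        rintro rfl
        exact hne (by simpa using hxy)
      refine h ⟨x / y, ?_⟩
      have : x ^ 2 + x * y + y ^ 2 = 0 :=
        mul_left_cancel₀ (sub_ne_zero.mpr hne) (by linear_combination hxy)
      field_simp
      linear_combination this - y ^ 2 * h2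
    obtain ⟨w, hw⟩ := Bww.exists_pow_ne (F := F) (k := 2) (by norm_num) (by omega)
    obtain ⟨r, hr⟩ := Finite.injective_iff_surjective.mp hinj (w ^ 2 + w)
    refine ⟨r, w, ?_, hr⟩
    rintro rfl
    exact hw (by linear_combination -hr - w * h2)
  have : CharP F 2 := CharTwo.of_one_ne_zero_of_two_eq_zero one_ne_zero h2
  have ht : r⁻¹ * r = 1 := inv_mul_cancel₀ r0
  generalize r⁻¹ = t at ht
  exact not_law_of_conic (t := t) (u := t + r) (s := 1 + t ^ 2 * w ^ 2) (a := 0) (b := t)
    (by grind) (by grind) (by grind) n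

theorem not_law_odd (h2 : (2 : F) ≠ 0) {t : F} (ht : IsSquare ((t ^ 3 - 4 * t) ^ 2 - 4)) (n : ℕ) :
    ¬ Law (ProjectiveSpecialLinearGroup (Fin 2) F) n := by
  obtain ⟨k, hk⟩ := ht
  have hh : (2 : F)⁻¹ * 2 = 1 := inv_mul_cancel₀ h2
  generalize (2 : F)⁻¹ = h at hh
  by_cases hg : t ^ 3 - 4 * t = 0
  · rw [hg] at hk
    have hi : (k * h) ^ 2 = -1 := by grind
    generalize k * h = i at hi
    exact not_law_of_conic (t := 2) (u := 3 * h) (s := 1 + i * h) (a := -1 - i) (b := 1 + i)
      (by grind) (by grind) (by grind) n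
  have t0 : t ≠ 0 := by rintro rfl; simp at hg
  have hr : t⁻¹ * t = 1 := inv_mul_cancel₀ t0
  generalize t⁻¹ = r at hr
  have t4 : 1 - t ^ 2 * h ^ 2 ≠ 0 := fun h0 => hg (by grind)
  have hchar : ringChar F ≠ 2 := by
    intro h
    apply h2
    have := ringChar.Nat.cast_ringChar (R := F)
    rwa [h] at this
  obtain ⟨s, hs⟩ : ∃ s : F, 2 * s = t ^ 2 - 2 + k * r :=
    ⟨(t ^ 2 - 2 + k * r) * h, by linear_combination (t ^ 2 - 2 + k * r) * hh⟩
  have hs2 : 2 * t * (t - r) * (2 * s) - (2 * s) ^ 2 - 2 * (2 * s) - 4 * (t - r) ^ 2 + 4 = 0 := by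
    rw [hs]
    clear hh hg t4 hs
    grind
  obtain ⟨a, b, hab⟩ := FiniteField.exists_root_sum_quadratic (R := F)
    (f := C 1 * X ^ 2 + C (-s) * X + C 0)
    (g := C (1 - t ^ 2 * h ^ 2) * X ^ 2 + C (s * t * h - (t - r)) * X + C 1)
    (degree_quadratic one_ne_zero) (degree_quadratic t4) (FiniteField.odd_card_of_char_ne_two hchar)
  simp only [eval_add, eval_mul, eval_C, eval_pow, eval_X] at hab
  exact not_law_of_conic (t := t) (u := t - r) (s := s) (a := a - t * b * h) (b := b)
    (by linear_combination hr) (mul_left_cancel₀ (mul_ne_zero h2 h2) (by linear_combination hs2))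
    (by linear_combination hab + (t ^ 2 * b ^ 2 * h - t * a * b) * hh) n

theorem exists_sq_big (h2 : (2 : F) ≠ 0) (h3 : (3 : F) ≠ 0) :
    ∃ t : F, IsSquare ((t ^ 3 - 4 * t) ^ 2 - 4) := by
  classical
  by_contra hc
  push Not at hc
  set q := Fintype.card F with hq
  set S : Finset F := {y | IsSquare (y ^ 2 - 4)} with hS
  have h4 : (2 : F) ≠ -2 := fun h => by
    have : (2 : F) * 2 = 0 := by linear_combination h
    simp [h2] at this
  have hS1 : q ≤ 3 + 2 * #(S \ {2, -2}) := by
    have h1 : #(univ \ {0, 1, -1} : Finset F) ≤ 2 * #(S \ {2, -2}) := by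
      refine card_le_mul_card_image_of_maps_to (f := fun l : F => l + l⁻¹) ?_ 2 ?_
      · intro l hl
        simp only [mem_sdiff, mem_univ, mem_insert, mem_singleton, true_and, not_or] at hl
        obtain ⟨l0, l1, l2⟩ := hl
        have hl := mul_inv_cancel₀ l0
        simp only [hS, mem_sdiff, mem_filter, mem_univ, true_and, mem_insert, mem_singleton, not_or]
        refine ⟨⟨l - l⁻¹, by linear_combination 4 * hl⟩, fun h => l1 ?_, fun h => l2 ?_⟩
        · exact sub_eq_zero.mp (pow_eq_zero_iff two_ne_zero |>.mp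
            (by linear_combination l * h - hl))
        · exact eq_neg_of_add_eq_zero_left (pow_eq_zero_iff two_ne_zero |>.mp
            (by linear_combination l * h - hl))
      · intro y _
        by_cases hne : ∃ l : F, l ≠ 0 ∧ l + l⁻¹ = y
        · obtain ⟨l, l0, rfl⟩ := hne
          refine le_trans (card_le_card (t := {l, l⁻¹}) ?_) card_le_two
          intro x hx
          simp only [mem_filter, mem_sdiff, mem_univ, mem_insert, mem_singleton, true_and,
            not_or] at hx ⊢
          have e1 := mul_inv_cancel₀ l0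
          have e2 := mul_inv_cancel₀ hx.1.1
          have : (x - l) * (x - l⁻¹) = 0 := by linear_combination x * hx.2 + e1 - e2
          simpa [sub_eq_zero] using this
        · rw [filter_eq_empty_iff.mpr]
          · simp
          · intro x hx h
            exact hne ⟨x, by rintro rfl; simp at hx, h⟩
    have h5 := le_card_sdiff ({0, 1, -1} : Finset F) univ
    have h6 : #({0, 1, -1} : Finset F) ≤ 3 := card_le_three
    rw [card_univ] at h5
    omega
  have hS2 : #(S \ {2, -2}) + 2 = #S := by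
    rw [← card_pair h4, card_sdiff_add_card_eq_card]
    intro y hy
    simp only [mem_insert, mem_singleton] at hy
    simp only [hS, mem_filter, mem_univ, true_and]
    rcases hy with rfl | rfl <;> exact ⟨0, by ring⟩
  have hS3 : #S + #Sᶜ = q := card_add_card_compl S
  set g : F → F := fun t => t ^ 3 - 4 * t with hg
  have hmaps : ∀ t : F, g t ∈ Sᶜ := fun t => by simpa [hS] using hc t
  have hsum : q = ∑ y ∈ Sᶜ, #{t : F | g t = y} :=
    card_eq_sum_card_fiberwise (s := univ) (f := g) fun t _ => by simpa using hmaps t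
  have hE : ∑ y ∈ Sᶜ, #{t : F | g t = y} ^ 2 = #{p : F × F | g p.1 = g p.2} := by
    rw [card_eq_sum_card_fiberwise (f := fun p : F × F => g p.1) (t := Sᶜ)
      fun p _ => by simpa using hmaps p.1]
    refine sum_congr rfl fun y _ => ?_
    rw [pow_two, ← card_product]
    congr 1
    ext p
    simp only [mem_product, mem_filter, mem_univ, true_and]
    constructor
    · rintro ⟨h1, h2⟩
      exact ⟨h1.trans h2.symm, h1⟩
    · rintro ⟨h1, h2⟩
      exact ⟨h2, h1 ▸ h2⟩
  have hE2 : #{p : F × F | g p.1 = g p.2} ≤ q + (q + 2) := by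
    set A : Finset (F × F) := {p | p.1 ≠ 2 ∧ p.1 ^ 2 + p.1 * p.2 + p.2 ^ 2 = 4} with hA
    have hA1 : #A ≤ q := by
      refine card_le_card_of_injOn (t := univ) (fun p => p.2 / (p.1 - 2)) (by simp) ?_
      rintro ⟨x, y⟩ hx ⟨x', y'⟩ hx' h
      simp only [hA, coe_filter, mem_univ, true_and, Set.mem_setOf_eq] at hx hx' h
      have e1 := sub_ne_zero.mpr hx.1
      have e2 := sub_ne_zero.mpr hx'.1
      obtain ⟨m, hm⟩ : ∃ m, y / (x - 2) = m := ⟨_, rfl⟩
      have hy : y = m * (x - 2) := by rw [← hm]; field_simp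
      have hy' : y' = m * (x' - 2) := by rw [← hm, h]; field_simp
      subst hy hy'
      have k1 : x * (1 + m + m ^ 2) = 2 * m ^ 2 - 2 :=
        mul_left_cancel₀ e1 (by linear_combination hx.2)
      have k2 : x' * (1 + m + m ^ 2) = 2 * m ^ 2 - 2 :=
        mul_left_cancel₀ e2 (by linear_combination hx'.2)
      have k3 : 1 + m + m ^ 2 ≠ 0 := by
        intro h0
        have : (2 : F) * 3 = 0 := by
          have K : 2 * m ^ 2 - 2 = 0 := by rw [← k1, h0, mul_zero]
          linear_combination (4 - 2 * m) * h0 + (m - 1) * K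
        simp [h2, h3] at this
      rw [mul_right_cancel₀ k3 (k1.trans k2.symm)]
    calc _ ≤ #(univ.image (fun x : F => (x, x)) ∪ (A ∪ {(2, 0), (2, -2)})) := by
          refine card_le_card fun p hp => ?_
          obtain ⟨x, y⟩ := p
          simp only [mem_filter, mem_univ, true_and, hg] at hp
          simp only [mem_union, mem_image, mem_univ, true_and, Prod.mk.injEq, hA, mem_filter,
            mem_insert, mem_singleton]
          by_cases hxy : x = y
          · exact Or.inl ⟨x, rfl, hxy⟩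
          have e : x ^ 2 + x * y + y ^ 2 = 4 :=
            mul_left_cancel₀ (sub_ne_zero.mpr hxy) (by linear_combination hp)
          by_cases hx : x = 2
          · subst hx
            have : y * (y + 2) = 0 := by linear_combination e
            simpa [add_eq_zero_iff_eq_neg] using Or.inr this
          · exact Or.inr (Or.inl ⟨hx, e⟩)
      _ ≤ _ := (card_union_le _ _).trans (add_le_add card_image_le
          ((card_union_le _ _).trans (add_le_add hA1 card_le_two)))
  have hcs := sq_sum_le_card_mul_sum_sq (s := Sᶜ) (f := fun y => #{t : F | g t = y})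
  rw [← hsum, hE] at hcs
  have h7 : 2 * #Sᶜ + 1 ≤ q := by omega
  nlinarith [Nat.mul_le_mul_left #Sᶜ hE2]

theorem exists_sq_three {p : ℕ} (hp1 : 1 < p) (hq : Fintype.card F = 3 ^ p) :
    ∃ t : F, IsSquare ((t ^ 3 - 4 * t) ^ 2 - 4) := by
  classical
  by_contra hc
  push Not at hc
  have : Fact (Nat.Prime 3) := ⟨Nat.prime_three⟩
  have : CharP F 3 := charP_of_card_eq_prime_pow hq
  have h3 : (3 : F) = 0 := by simpa using CharP.cast_eq_zero F 3
  have hchar : ringChar F ≠ 2 := by rw [ringChar.eq F 3]; norm_num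
  obtain ⟨n, rfl⟩ : ∃ n, p = n + 1 := ⟨p - 1, by omega⟩
  have hhalf : Fintype.card F / 2 = ∑ i ∈ range (n + 1), 3 ^ i := by
    rw [Nat.geomSum_eq (by norm_num), hq]
    have : Odd (3 ^ (n + 1)) := Odd.pow (by decide)
    obtain ⟨k, hk⟩ := this
    omega
  let A : F → F[X] := fun e => (∏ i ∈ range n, (X ^ 3 ^ (i + 1) - (X ^ 3 ^ i - C e))) *
    (X ^ 3 ^ n - (X + C e))
  have hf1 : ∀ (e : F) (i : ℕ), (X ^ 3 ^ i - C e : F[X]).degree < ((3 ^ (i + 1) : ℕ) : WithBot ℕ) := by
    intro e i
    rw [degree_X_pow_sub_C (by positivity)]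
    exact_mod_cast Nat.pow_lt_pow_right (by norm_num) (by omega)
  have hf2 : ∀ e : F, (X + C e : F[X]).degree < ((3 ^ n : ℕ) : WithBot ℕ) := by
    intro e
    rw [degree_X_add_C]
    exact_mod_cast Nat.one_lt_pow (by omega) (by norm_num)
  have hA : ∀ e, (A e).IsMonicOfDegree (∑ i ∈ range n, 3 ^ (i + 1) + 3 ^ n) := by
    intro e
    refine IsMonicOfDegree.mul ⟨?_, monic_prod_of_monic _ _ fun i _ => monic_X_pow_sub (hf1 e i)⟩
      ⟨?_, monic_X_pow_sub (hf2 e)⟩
    · rw [natDegree_prod_of_monic _ _ fun i _ => monic_X_pow_sub (hf1 e i)]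
      refine sum_congr rfl fun i _ => ?_
      rw [natDegree_sub_eq_left_of_natDegree_lt, natDegree_X_pow]
      rw [natDegree_X_pow, natDegree_X_pow_sub_C]
      exact Nat.pow_lt_pow_right (by norm_num) (by omega)
    · rw [natDegree_sub_eq_left_of_natDegree_lt, natDegree_X_pow]
      rw [natDegree_X_pow, natDegree_X_add_C]
      exact Nat.one_lt_pow (by omega) (by norm_num)
  have hev : ∀ e t : F, e ^ 3 = e → (A e).eval t = -(t ^ 3 - t + e) ^ (Fintype.card F / 2) := by
    intro e t he
    have he' : ∀ i, e ^ 3 ^ i = e := fun i => by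
      induction i with
      | zero => simp
      | succ i ih => rw [pow_succ, pow_mul, ih, he]
    have hi : ∀ i, (t ^ 3 - t + e) ^ 3 ^ i = t ^ 3 ^ (i + 1) - t ^ 3 ^ i + e := fun i => by
      rw [add_pow_char_pow, sub_pow_char_pow, he', ← pow_mul, ← pow_succ']
    rw [hhalf, ← prod_pow_eq_pow_sum, prod_range_succ]
    simp only [A, hi, eval_mul, eval_prod, eval_sub, eval_pow, eval_X, eval_C, eval_add]
    rw [← hq, FiniteField.pow_card, ← mul_neg]
    congr 1
    · exact prod_congr rfl fun i _ => by ring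
    · ring
  have hD : ∑ i ∈ range n, 3 ^ (i + 1) + 3 ^ n < Fintype.card F := by
    have h1 := sum_range_succ' (fun i => 3 ^ i) n
    rw [← hhalf, hq, pow_succ] at h1
    rw [hq, pow_succ]
    omega
  have h0 : A 1 + A (-1) = 0 := by
    refine eq_zero_of_natDegree_lt_card_of_eval_eq_zero _ Function.injective_id (fun t => ?_)
      (lt_of_le_of_lt ((natDegree_add_le _ _).trans ?_) hD)
    · have hns : ¬ IsSquare ((t ^ 3 - t + 1) * (t ^ 3 - t + -1)) := by
        convert hc t using 2
        linear_combination (2 * t ^ 4 - 5 * t ^ 2 + 1) * h3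
      have hne : (t ^ 3 - t + 1) * (t ^ 3 - t + -1) ≠ 0 := fun h => hns (h ▸ IsSquare.zero)
      have h1 := (FiniteField.pow_dichotomy hchar hne).resolve_left
        fun h => hns ((FiniteField.isSquare_iff hchar hne).mpr h)
      rw [mul_pow] at h1
      rw [id, eval_add, hev 1 t (one_pow _), hev (-1) t (by ring)]
      rcases FiniteField.pow_dichotomy hchar (left_ne_zero_of_mul hne) with h | h <;>
        rw [h] at h1 ⊢
      · linear_combination -h1
      · linear_combination h1
    · rw [(hA 1).1, (hA (-1)).1, max_self]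
  have h1 := congrArg (fun f => f.coeff (∑ i ∈ range n, 3 ^ (i + 1) + 3 ^ n)) h0
  have h2 := fun e => (hA e).1 ▸ (hA e).2.coeff_natDegree
  simp only [coeff_add, h2, coeff_zero] at h1
  exact one_ne_zero (α := F) (by linear_combination h3 - h1)

theorem not_law_psl2 (hF : (∃ p : ℕ, p.Prime ∧ Fintype.card F = 2 ^ p) ∨
    (∃ p : ℕ, p.Prime ∧ Fintype.card F = 3 ^ p) ∨ ((Fintype.card F).Prime ∧ 5 ≤ Fintype.card F))
    (n : ℕ) : ¬ Law (ProjectiveSpecialLinearGroup (Fin 2) F) n := by
  rcases hF with ⟨p, hp, h⟩ | ⟨p, hp, h⟩ | ⟨hp, h⟩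
  · have : CharP F 2 := charP_of_card_eq_prime_pow h
    refine not_law_even CharTwo.two_eq_zero ?_ n
    rw [h]
    exact Nat.pow_le_pow_right (n := 2) (i := 2) (by norm_num) hp.two_le
  · have : Fact (Nat.Prime 3) := ⟨Nat.prime_three⟩
    have : CharP F 3 := charP_of_card_eq_prime_pow h
    have h3 : (3 : F) = 0 := by simpa using CharP.cast_eq_zero F 3
    obtain ⟨t, ht⟩ := exists_sq_three hp.one_lt h
    exact not_law_odd (fun h2 => one_ne_zero (α := F) (by linear_combination h3 - h2)) ht n
  · have : Fact (Fintype.card F).Prime := ⟨hp⟩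
    have : CharP F (Fintype.card F) := charP_of_card_eq_prime rfl
    have key : ∀ k : ℕ, 0 < k → k < 5 → (k : F) ≠ 0 := fun k h0 h5 hk =>
      absurd (Nat.le_of_dvd h0 ((CharP.cast_eq_zero_iff F (Fintype.card F) k).mp hk)) (by omega)
    have h2 : (2 : F) ≠ 0 := by simpa using key 2 (by norm_num) (by norm_num)
    obtain ⟨t, ht⟩ := exists_sq_big h2 (by simpa using key 3 (by norm_num) (by norm_num))
    exact not_law_odd h2 ht n

end Cfsg.Agent.NG.Bgk
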