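import Mathlib
import Cfsg.Agent.NG.BgkA
import Cfsg.Agent.NG.BgkP

/-!
# A fixed point of the BGGKPP map in `Sz(q)`, given a solution of `θ Z = s² ε² Z + η²`
-/

set_option autoImplicit false

namespace Cfsg.Agent.NG.Bgk

open Matrix Cfsg.Agent.Chev.Sz

variable {F : Type*} [Field F] {m : ℕ} [SzF F m]

theorem mat_bruhat (a b c d : F) (k : Fˣ) (g : Cfsg.Sz F m)
    (hg : g = ue a b * we * (ue c d * he k)) :
    mat g 3 0 = thInv F k * k ∧ mat g 2 0 = a * (thInv F k * k) ∧ mat g 1 0 = b * (thInv F k * k) ∧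
      mat g 3 1 = c * thInv F k ∧ mat g 3 2 = (d + c * th F c) * (thInv F k)⁻¹ := by
  subst hg
  simp only [← mul_assoc, mat_mul, mat_ue, mat_we, mat_he, hMat, Matrix.mul_diagonal]
  simp [uMat, suzukiForm, Matrix.mul_apply, Fin.sum_univ_four, mul_assoc]

theorem ext5 {g h : Cfsg.Sz F m} (h0 : mat g 3 0 ≠ 0) (h1 : mat g 3 0 = mat h 3 0)
    (h2 : mat g 3 1 = mat h 3 1) (h3 : mat g 3 2 = mat h 3 2) (h4 : mat g 2 0 = mat h 2 0)
    (h5 : mat g 1 0 = mat h 1 0) : g = h := by
  have key : ∀ g : Cfsg.Sz F m, mat g 3 0 ≠ 0 → g • (inf : Ov F m) ≠ inf := by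
    intro g hg hi
    obtain ⟨c, hc⟩ := (smul_inf_eq_inf_iff g).mp hi
    exact hg (by simpa [Matrix.mulVec, dotProduct, Fin.sum_univ_four] using congrFun hc 3)
  obtain ⟨a, b, c, d, k, hg⟩ := bruhat (key g h0)
  obtain ⟨a', b', c', d', k', hh⟩ := bruhat (key h (h1 ▸ h0))
  obtain ⟨e1, e2, e3, e4, e5⟩ := mat_bruhat a b c d k g hg
  obtain ⟨f1, f2, f3, f4, f5⟩ := mat_bruhat a' b' c' d' k' h hh
  have hk : k = k' := by
    have : thInv F k = thInv F k' :=
      mul_th_injective (by rw [th_thInv, th_thInv, ← e1, ← f1, h1])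
    exact Units.ext ((thInv F).injective this)
  subst hk
  have k0 := thInv_units_ne_zero k
  have k1 : thInv F k * k ≠ 0 := e1 ▸ h0
  obtain rfl : a = a' := mul_right_cancel₀ k1 (by rw [← e2, ← f2, h4])
  obtain rfl : b = b' := mul_right_cancel₀ k1 (by rw [← e3, ← f3, h5])
  obtain rfl : c = c' := mul_right_cancel₀ k0 (by rw [← e4, ← f4, h2])
  obtain rfl : d = d' := add_right_cancel (mul_right_cancel₀ (inv_ne_zero k0)
    (by rw [← e5, ← f5, h3]))
  rw [hg, hh]

theorem mat_low (a b : F) : mat (we * ue a b * we : Cfsg.Sz F m) =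
    !![1, 0, 0, 0; a, 1, 0, 0; b, th F a, 1, 0; nrm a b, b + a * th F a, a, 1] := by
  ext i j
  fin_cases i <;> fin_cases j <;>
    simp [mat_mul, mat_ue, mat_we, uMat, suzukiForm, Matrix.mul_apply, Fin.sum_univ_four]

theorem rel_of_f {a b c d al ka : F} (hal : al ≠ 0) (hka : ka ≠ 0) (hac : a + c ≠ 0)
    (hf : ∀ f ∈ [f30, f31, f32, f20, f10], f (a * al) (th F a * ka) (b * al * ka)
      (th F b * al ^ 2 * ka) (c * al) (th F c * ka) (d * al * ka) (th F d * al ^ 2 * ka) al ka = 0)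
    (x z : Cfsg.Sz F m) (hx : x = ue a b * we) (hz : z = ue c d) :
    z * x * z⁻¹ * x * z = x * x * (z * z) * (x * x) := by
  have key : (ue a b)⁻¹ * z * ue a b * (we * (z⁻¹ * ue a b) * we) * z =
      we * ue a b * we * (z * z * ue a b) * (we * ue a b * we) := by
    simp only [List.mem_cons, List.not_mem_nil, or_false, forall_eq_or_imp, forall_eq] at hf
    obtain ⟨h1, h2, h3, h4, h5⟩ := hf
    have hc : ∀ i j : ℕ, al ^ i * ka ^ j ≠ 0 := fun i j => by simp [hal, hka]
    subst hz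
    simp only [ue_inv, ue_mul]
    refine ext5 ?_ (mul_left_cancel₀ (hc 6 3) ?_) (mul_left_cancel₀ (hc 5 3) ?_)
      (mul_left_cancel₀ (hc 5 2) ?_) (mul_left_cancel₀ (hc 5 3) ?_) (mul_left_cancel₀ (hc 5 2) ?_)
    all_goals
      rw [mat_mul, mat_mul, mat_low]
      try rw [mat_mul, mat_mul (we * _ * _), mat_low]
      simp [mat_ue, uMat, Matrix.mul_apply, Fin.sum_univ_four]
    · exact fun h => hac (by rw [add_comm, (nrm_eq_zero.mp h).1])
    all_goals
      simp only [f30, f31, f32, f20, f10] at h1 h2 h3 h4 h5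
      simp only [nrm_def, map_add, map_mul, th_th]
    · clear h2 h3 h4 h5; grind
    · clear h1 h3 h4 h5; grind
    · clear h1 h2 h4 h5; grind
    · clear h1 h2 h3 h5; grind
    · clear h1 h2 h3 h4; grind
  rw [hx]
  calc _ = ue a b * ((ue a b)⁻¹ * z * ue a b * (we * (z⁻¹ * ue a b) * we) * z) := by
        simp only [mul_assoc, mul_inv_cancel_left]
    _ = _ := by rw [key]; simp only [mul_assoc]

theorem th_pmu (s t : F) : th F (pmu s t) = pmu (th F s) (th F t) := by simp [pmu]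

theorem th_pep (s t : F) : th F (pep s t) = pep (th F s) (th F t) := by simp [pep]

theorem th_prho (s t : F) : th F (prho s t) = prho (th F s) (th F t) := by simp [prho]

theorem th_peta (s t : F) : th F (peta s t) = peta (th F s) (th F t) := by simp [peta]

theorem pep_ne_zero (s : F) : pep s (th F s) ≠ 0 := fun h => add_th_ne_one s (by
  rw [pep] at h; grind)

theorem pmu_ne_zero {s : F} (s0 : s ≠ 0) (s1 : s ≠ 1) : pmu s (th F s) ≠ 0 := by
  intro h
  have h' := congrArg (th F) h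
  rw [th_pmu, th_th, map_zero] at h'
  have := pep_ne_zero s
  simp only [pmu, pep] at h h' this
  generalize th F s = t at *
  have e : s ^ 2 * (s + 1) ^ 2 * (s + t + 1) = 0 := by grind
  simp only [mul_eq_zero, pow_eq_zero_iff two_ne_zero, s0, this, false_or, or_false] at e
  exact s1 (by grind)

theorem not_law_of_Z {s Z : F} (s0 : s ≠ 0) (s1 : s ≠ 1)
    (hW : th F Z = s ^ 2 * pep s (th F s) ^ 2 * Z + peta s (th F s) ^ 2) (n : ℕ) :
    ¬ Law (Cfsg.Sz F m) n := by
  have hZ := congrArg (th F) hW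
  simp only [th_th, map_add, map_mul, map_pow, th_pep, th_peta] at hZ
  have hmu := pmu_ne_zero s0 s1
  have hep := pep_ne_zero s
  have hep' := pep_ne_zero (th F s)
  have hde : pmu (th F s) (s ^ 2) ≠ 0 := by
    rw [← th_th, ← th_pmu]
    simpa using hmu
  rw [th_th] at hep'
  have t0 : th F s ≠ 0 := by simpa using s0
  have e : pmu (s ^ 2) (th F s ^ 2) = pmu s (th F s) ^ 2 := by simp only [pmu]; grind
  have e' : pmu (th F s ^ 2) ((s ^ 2) ^ 2) = pmu (th F s) (s ^ 2) ^ 2 := by simp only [pmu]; grind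
  set t := th F s with ht
  set al := s * pmu t (s ^ 2) with hal
  set ka := t * pmu s t ^ 2 with hka
  have al0 : al ≠ 0 := mul_ne_zero s0 hde
  have ka0 : ka ≠ 0 := mul_ne_zero t0 (pow_ne_zero _ hmu)
  have tt : th F t = s ^ 2 := th_th s
  have tal : th F al = ka := by simp only [hal, hka, map_mul, th_pmu, tt, map_pow, ← ht, e]
  have tka : th F ka = al ^ 2 := by
    simp only [hal, hka, map_mul, th_pmu, tt, map_pow, ← ht, mul_pow]
  refine not_law (MonoidHom.id _) (rel_of_f (a := t ^ 2 * pep s t ^ 2 / al)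
    (b := (s ^ 2 * Z + t ^ 4 * (t + 1) ^ 4) / (al * ka)) (c := pmu s t ^ 2 / al)
    (d := ((t + 1) ^ 2 * Z + prho s t ^ 2) / (al * ka)) al0 ka0 ?_ ?_ _ _ rfl rfl) ?_ n
  · rw [← add_div, show t ^ 2 * pep s t ^ 2 + pmu s t ^ 2 = (s * pep t (s ^ 2)) ^ 2 by
      simp only [pep, pmu]; grind]
    simp [s0, hep', al0]
  · intro f hf
    have : sub f s t Z (th F Z) = 0 := by
      simp only [List.mem_cons, List.not_mem_nil, or_false] at hf
      rcases hf with rfl | rfl | rfl | rfl | rfl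
      exacts [e30 hW hZ, e31 hW hZ, e32 hW hZ, e20 hW hZ, e10 hW hZ]
    rw [← this, sub]
    simp only [map_div₀, map_mul, map_add, map_pow, map_one, tal, tka, tt, th_pep, th_pmu, th_prho,
      ← ht]
    congr 1 <;> field_simp
  · intro h
    have h1 := congrArg (· • (inf : Ov F m)) h
    have hn : nrm (t ^ 2 * pep s t ^ 2 / al) ((s ^ 2 * Z + t ^ 4 * (t + 1) ^ 4) / (al * ka)) ≠ 0 :=
      fun h => by simpa [t0, hep, al0] using (nrm_eq_zero.mp h).1
    simp [mul_smul, we_smul_pt hn] at h1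

end Cfsg.Agent.NG.Bgk
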