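import Mathlib
import Cfsg.Agent.NG.BgkC

/-!
# The BGGKPP sequence is not a law in `Sz(q)`: the trace condition can be met
-/

set_option autoImplicit false

namespace Cfsg.Agent.NG.Bgk

open Finset Cfsg.Agent.Chev.Sz

theorem exp_unique {m i k : ℕ} (hm : 1 ≤ m) (h1 : 2 ^ m ≤ i) (h2 : i < 3 * 2 ^ m - 2)
    (hk : k < 2 * m + 1) (h : i * 2 ^ k ≡ 2 * 2 ^ m - 1 [MOD 2 ^ (2 * m + 1) - 1]) :
    k = 0 ∧ i = 2 * 2 ^ m - 1 := by
  have hM : 2 ≤ 2 ^ m := Nat.le_self_pow (by omega) 2 |>.trans' (by norm_num)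
  have hq : 2 ^ (2 * m + 1) = 2 * (2 ^ m * 2 ^ m) := by ring
  have hone : 2 ^ (2 * m + 1) ≡ 1 [MOD 2 ^ (2 * m + 1) - 1] :=
    ((Nat.modEq_iff_dvd' Nat.one_le_two_pow).mpr dvd_rfl).symm
  have hMM : 2 * 2 ^ m ≤ 2 ^ m * 2 ^ m := Nat.mul_le_mul_right _ hM
  rcases Nat.eq_zero_or_pos k with rfl | k0
  · rw [pow_zero, mul_one] at h
    exact ⟨rfl, h.eq_of_lt_of_lt (by omega) (by omega)⟩
  exfalso
  obtain ⟨j, hj⟩ : ∃ j, 2 * m + 1 = k + j := ⟨2 * m + 1 - k, by omega⟩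
  have h3 : i ≡ (2 * 2 ^ m - 1) * 2 ^ j [MOD 2 ^ (2 * m + 1) - 1] := by
    have := h.mul_right (2 ^ j)
    rw [mul_assoc, ← pow_add, ← hj] at this
    simpa using ((hone.mul_left i).symm.trans this)
  rw [Nat.sub_mul, one_mul] at h3
  rcases le_or_gt j m with hjm | hjm
  · have e1 : 2 ^ j ≤ 2 ^ m := Nat.pow_le_pow_right (by norm_num) hjm
    have e2 : 2 ≤ 2 ^ j := Nat.le_self_pow (by omega) 2 |>.trans' (by norm_num)
    have e3 : 2 ^ m * 2 ^ j ≤ 2 ^ m * 2 ^ m := Nat.mul_le_mul_left _ e1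
    have e4 : (2 ^ m - 1) * 2 ≤ (2 ^ m - 1) * 2 ^ j := Nat.mul_le_mul_left _ e2
    have e5 : 2 ^ m * 2 ≤ 2 ^ m * 2 ^ j := Nat.mul_le_mul_left _ e2
    rw [Nat.sub_mul, one_mul] at e4
    rw [mul_assoc] at h3
    have := h3.eq_of_lt_of_lt (by omega) (by omega)
    omega
  · obtain ⟨l, rfl⟩ : ∃ l, j = m + l := ⟨j - m, by omega⟩
    have e1 : 2 ^ l ≤ 2 ^ m := Nat.pow_le_pow_right (by norm_num) (by omega)
    have e2 : 2 ≤ 2 ^ l := Nat.le_self_pow (by omega) 2 |>.trans' (by norm_num)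
    have e3 : 2 ^ m * 2 ^ l ≤ 2 ^ m * 2 ^ m := Nat.mul_le_mul_left _ e1
    have e4 : 2 ^ l * 2 ≤ 2 ^ l * 2 ^ m := Nat.mul_le_mul_left _ hM
    have e5 : 3 * (2 ^ m - 1) ≤ (2 ^ m + 1) * (2 ^ m - 1) := Nat.mul_le_mul_right _ (by omega)
    have e6 : (2 ^ m + 1) * (2 ^ m - 1) = 2 ^ m * 2 ^ m - 1 := by
      rw [← Nat.sq_sub_sq, one_pow, pow_two]
    have h4 : i + 2 ^ m * 2 ^ l ≡ 2 ^ l [MOD 2 ^ (2 * m + 1) - 1] := by
      have := h3.add_right (2 ^ (m + l))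
      rw [Nat.sub_add_cancel (Nat.le_mul_of_pos_left _ (by omega)),
        show 2 * 2 ^ m * 2 ^ (m + l) = 2 ^ (2 * m + 1) * 2 ^ l by ring, pow_add 2 m l] at this
      simpa only [one_mul] using this.trans (hone.mul_right _)
    rw [mul_comm _ (2 ^ m)] at e4
    have := Nat.le_of_dvd (by omega) ((Nat.modEq_iff_dvd' (by omega)).mp h4.symm)
    omega

variable {F : Type*} [Field F] {m : ℕ} [SzF F m]

/-- The absolute trace. -/
def trc (m : ℕ) (x : F) : F := ∑ k ∈ range (2 * m + 1), x ^ 2 ^ k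

theorem trc_cases (x : F) : trc m x = 0 ∨ trc m x = 1 := by
  have h : trc m x ^ 2 = trc m x := by
    have h1 := sum_range_succ (fun k => x ^ 2 ^ k) (2 * m + 1)
    rw [sum_range_succ', pow_card_F, pow_zero, pow_one] at h1
    rw [trc, sum_pow_char, ← add_right_cancel h1]
    exact sum_congr rfl fun k _ => by rw [← pow_mul, ← pow_succ]
  grind

theorem exists_th_add {x : F} (h : trc m x = 1) : ∃ y : F, th F y = y + x + 1 := by
  have h0 : trc m (x + 1) = 0 := by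
    simp only [trc, add_pow_char_pow, one_pow, sum_add_distrib] at h ⊢
    rw [h]
    simp only [sum_const, card_range, nsmul_eq_mul, mul_one]
    push_cast
    grind
  refine ⟨∑ k ∈ range (m + 1), (x + 1) ^ 2 ^ k, ?_⟩
  have h1 := sum_range_add (fun k => (x + 1) ^ 2 ^ k) (m + 1) (m + 1)
  rw [show m + 1 + (m + 1) = 2 * m + 1 + 1 by ring, sum_range_succ, pow_card_F, ← trc, h0] at h1
  have h2 : th F (∑ k ∈ range (m + 1), (x + 1) ^ 2 ^ k) =
      ∑ k ∈ range (m + 1), (x + 1) ^ 2 ^ (m + 1 + k) := by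
    rw [map_sum]
    exact sum_congr rfl fun k _ => by rw [th_apply, ← pow_mul, ← pow_add, add_comm k]
  rw [h2]
  grind

theorem exists_trc : ∃ w : F, w ≠ 0 ∧ trc m (∑ i ∈ Ico (2 ^ m) (3 * 2 ^ m - 2), w ^ i) = 1 := by
  classical
  have := Fintype.ofFinite F
  by_contra hc
  push Not at hc
  have hq : Fintype.card F = 2 ^ (2 * m + 1) := by rw [← Nat.card_eq_fintype_card, card_F]
  have hm := one_le_m F
  have hM : 2 ≤ 2 ^ m := Nat.le_self_pow (by omega) 2 |>.trans' (by norm_num)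
  have hq2 : 2 * 2 ^ m ≤ 2 ^ (2 * m + 1) := by
    rw [← pow_succ']
    exact Nat.pow_le_pow_right (by norm_num) (by omega)
  set c := 2 ^ (2 * m + 1) - 2 * 2 ^ m with hc0
  have h1 : ∑ w : Fˣ, trc m (∑ i ∈ Ico (2 ^ m) (3 * 2 ^ m - 2), (w : F) ^ i) * (w : F) ^ c = 0 :=
    sum_eq_zero fun w _ => by rw [(trc_cases _).resolve_right (hc w w.ne_zero), zero_mul]
  simp only [trc, sum_pow_char_pow, sum_mul, ← pow_mul, ← pow_add] at h1
  rw [sum_comm] at h1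
  simp only [sum_comm (s := univ), FiniteField.sum_pow_units, hq] at h1
  have key : ∀ k i, (2 ^ (2 * m + 1) - 1 ∣ i * 2 ^ k + c) ↔
      i * 2 ^ k ≡ 2 * 2 ^ m - 1 [MOD 2 ^ (2 * m + 1) - 1] := by
    intro k i
    rw [← Nat.modEq_zero_iff_dvd,
      ← Nat.ModEq.add_iff_right (a := i * 2 ^ k) (c := c) (d := c) Nat.ModEq.rfl,
      show 2 * 2 ^ m - 1 + c = 2 ^ (2 * m + 1) - 1 by omega]
    exact ⟨fun h => h.trans (Nat.modEq_zero_iff_dvd.mpr dvd_rfl).symm,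
      fun h => h.trans (Nat.modEq_zero_iff_dvd.mpr dvd_rfl)⟩
  simp only [key] at h1
  rw [sum_eq_single 0, sum_eq_single (2 * 2 ^ m - 1), if_pos (by simp [Nat.ModEq])] at h1
  · simp at h1
  · intro i hi hne
    exact if_neg fun h => hne (exp_unique hm (mem_Ico.mp hi).1 (mem_Ico.mp hi).2 (by omega) h).2
  · exact fun h => absurd (mem_Ico.mpr ⟨by omega, by omega⟩) h
  · intro k hk hne
    exact sum_eq_zero fun i hi => if_neg fun h =>
      hne (exp_unique hm (mem_Ico.mp hi).1 (mem_Ico.mp hi).2 (mem_range.mp hk) h).1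
  · exact fun h => absurd (mem_range.mpr (by omega)) h

theorem not_law_sz (n : ℕ) : ¬ Law (Cfsg.Sz F m) n := by
  obtain ⟨w, w0, hw⟩ := exists_trc (F := F) (m := m)
  have hm := one_le_m F
  have hM : 2 ≤ 2 ^ m := Nat.le_self_pow (by omega) 2 |>.trans' (by norm_num)
  have w1 : w ≠ 1 := by
    rintro rfl
    have : ((3 * 2 ^ m - 2 - 2 ^ m : ℕ) : F) = 0 := by
      rw [show 3 * 2 ^ m - 2 - 2 ^ m = 2 * (2 ^ m - 1) by omega, Nat.cast_mul, Nat.cast_ofNat,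
        CharTwo.two_eq_zero, zero_mul]
    simp [trc, this] at hw
  obtain ⟨Y, hY⟩ := exists_th_add hw
  obtain ⟨r, hr⟩ : ∃ r, r = thInv F w := ⟨_, rfl⟩
  have tr : th F r = w := by rw [hr, th_thInv]
  have tw : th F w = r ^ 2 := by rw [← tr, th_th]
  have r0 : r ≠ 0 := by rintro rfl; exact w0 (by simpa using tr.symm)
  have r1 : r ≠ 1 := by rintro rfl; exact w1 (by simpa using tr.symm)
  have k1 : r + w ≠ 0 := fun h => by
    rcases th_eq_self (t := r) (by grind) with h | h <;> contradiction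
  have k2 : w + r ^ 2 ≠ 0 := fun h => by
    rcases th_eq_sq (t := r) (by grind) with h | h <;> contradiction
  have hP : (∑ i ∈ Ico (2 ^ m) (3 * 2 ^ m - 2), w ^ i) * (w - 1) * w ^ 2 = r ^ 3 - r * w ^ 2 := by
    rw [geom_sum_Ico_mul _ (by omega), sub_mul, ← pow_add,
      show 3 * 2 ^ m - 2 + 2 = 2 ^ m * 3 by omega, pow_mul, ← thInv_apply, ← hr]
  generalize ∑ i ∈ Ico (2 ^ m) (3 * 2 ^ m - 2), w ^ i = P at hY hP
  obtain ⟨s, hs⟩ : ∃ s, s = w / (r + w) := ⟨_, rfl⟩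
  have ht : th F s = r ^ 2 / (w + r ^ 2) := by rw [hs, map_div₀, map_add, tr, tw]
  have s0 : s ≠ 0 := by simp [hs, w0, k1]
  have s1 : s ≠ 1 := fun h => r0 (by
    rw [hs, div_eq_one_iff_eq k1] at h
    linear_combination -h)
  have hP2 : P * (s * (s ^ 2 + th F s + 1)) = th F s * (s + 1) := by
    rw [ht, hs]
    field_simp
    clear * - hP
    grind
  obtain ⟨t, htt⟩ : ∃ t, t = th F s := ⟨_, rfl⟩
  have tt : th F t = s ^ 2 := by rw [htt, th_th]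
  refine not_law_of_Z s0 s1 (Z := (s * t * (s + t + 1) * (s ^ 2 + t + 1) * Y +
    (s^5 + s^4*t + s^3*t^2 + s^4 + s^3*t + s*t^3 + s^3 + s^2*t + t^3 + s^2 + t)) ^ 2) ?_ n
  simp only [map_pow, map_add, map_mul, map_one, ← htt, tt, hY, pep, peta] at hP2 ⊢
  clear hY hs ht hP k1 k2
  rw [← mul_pow, ← mul_pow, ← CharTwo.add_sq]
  congr 1
  grind

end Cfsg.Agent.NG.Bgk
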