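import Mathlib

/-!
# Packed arithmetic in `𝔽₂[s, t][Z] / (Z² = E Z + G)`

A natural number `n` encodes `∑ s ^ (e / 256) * t ^ (e % 256)` over the set bits `e` of `n`.
-/

set_option autoImplicit false

namespace Cfsg.Agent.NG.Bgk

open Finset

/-- Expressions in three variables. -/
inductive Ex
  | s | t | z | one
  | add (a b : Ex)
  | mul (a b : Ex)
  | pow (a : Ex) (k : ℕ)

instance instAddEx : Add Ex := ⟨Ex.add⟩
instance instMulEx : Mul Ex := ⟨Ex.mul⟩
instance instPowEx : Pow Ex ℕ := ⟨Ex.pow⟩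
instance instOneEx : One Ex := ⟨Ex.one⟩

variable {F : Type*} [CommRing F]

/-- The value of an expression. -/
def den (s t z : F) : Ex → F
  | .s => s
  | .t => t
  | .z => z
  | .one => 1
  | .add a b => den s t z a + den s t z b
  | .mul a b => den s t z a * den s t z b
  | .pow a k => den s t z a ^ k

/-- A degree bound: `t` has weight one, `z` has weight `w`. -/
def dg (w : ℕ) : Ex → ℕ
  | .s => 0
  | .t => 1
  | .z => w
  | .one => 0
  | .add a b => max (dg w a) (dg w b)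
  | .mul a b => dg w a + dg w b
  | .pow a k => k * dg w a

/-- Multiply a state by an expression. -/
def run {σ : Type} (ad : σ → σ → σ) (ms mt mz : σ → σ) : Ex → σ → σ
  | .s, n => ms n
  | .t, n => mt n
  | .z, n => mz n
  | .one, n => n
  | .add a b, n => ad (run ad ms mt mz a n) (run ad ms mt mz b n)
  | .mul a b, n => run ad ms mt mz b (run ad ms mt mz a n)
  | .pow a k, n => Nat.rec n (fun _ r => run ad ms mt mz a r) k

theorem run_sound {σ : Type} {ad : σ → σ → σ} {ms mt mz : σ → σ} {s t z : F} {w : ℕ}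
    (R : σ → ℕ → F → Prop) (hm : ∀ n d d' x, d ≤ d' → R n d x → R n d' x)
    (ha : ∀ n n' d x x', R n d x → R n' d x' → R (ad n n') d (x + x'))
    (hs : ∀ n d x, R n d x → R (ms n) d (x * s))
    (ht : ∀ n d x, d + 1 < 256 → R n d x → R (mt n) (d + 1) (x * t))
    (hz : ∀ n d x, d + w < 256 → R n d x → R (mz n) (d + w) (x * z)) (e : Ex) :
    ∀ n d x, d + dg w e < 256 → R n d x → R (run ad ms mt mz e n) (d + dg w e) (x * den s t z e) := by
  induction e with
  | s => exact fun n d x _ h => hs n d x h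
  | t => exact ht
  | z => exact hz
  | one => exact fun n d x _ h => by simpa [run, den, dg] using h
  | add a b iha ihb =>
    intro n d x hd h
    simp only [dg] at hd
    rw [den, mul_add]
    exact ha _ _ _ _ _ (hm _ _ _ _ (by simp [dg]) (iha n d x (by omega) h))
      (hm _ _ _ _ (by simp [dg]) (ihb n d x (by omega) h))
  | mul a b iha ihb =>
    intro n d x hd h
    simp only [dg] at hd
    rw [den, ← mul_assoc, dg, ← add_assoc]
    exact ihb _ _ _ (by omega) (iha n d x (by omega) h)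
  | pow a k ih =>
    intro n d x hd h
    rw [den, dg] at *
    induction k with
    | zero => simpa [run] using h
    | succ k ihk =>
      rw [Nat.succ_mul] at hd
      rw [pow_succ, ← mul_assoc, Nat.succ_mul, ← add_assoc]
      exact ih _ _ _ (by omega) (ihk (by omega))

/-- `n` encodes `x`, with `t`-degree at most `d`. -/
def Enc (s t : F) (n d : ℕ) (x : F) : Prop :=
  ∃ N, (∀ e, n.testBit e → e < N ∧ e % 256 ≤ d) ∧
    x = ∑ e ∈ range N, if n.testBit e then s ^ (e / 256) * t ^ (e % 256) else 0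

theorem Enc.ext {s t x : F} {n d : ℕ} (h : Enc s t n d x) : ∃ N, ∀ M, N ≤ M →
    (∀ e, n.testBit e → e < M ∧ e % 256 ≤ d) ∧
    x = ∑ e ∈ range M, if n.testBit e then s ^ (e / 256) * t ^ (e % 256) else 0 := by
  obtain ⟨N, h1, h2⟩ := h
  refine ⟨N, fun M hM => ⟨fun e he => ⟨(h1 e he).1.trans_le hM, (h1 e he).2⟩, ?_⟩⟩
  rw [h2]
  refine sum_subset (range_subset_range.mpr hM) fun e _ he => if_neg fun h => he ?_
  exact mem_range.mpr (h1 e h).1

theorem Enc.mono {s t x : F} {n d d' : ℕ} (hd : d ≤ d') (h : Enc s t n d x) : Enc s t n d' x := by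
  obtain ⟨N, h1, h2⟩ := h
  exact ⟨N, fun e he => ⟨(h1 e he).1, (h1 e he).2.trans hd⟩, h2⟩

theorem Enc.xor [CharP F 2] {s t x x' : F} {n n' d : ℕ} (h : Enc s t n d x) (h' : Enc s t n' d x') :
    Enc s t (n ^^^ n') d (x + x') := by
  obtain ⟨N, hN⟩ := h.ext
  obtain ⟨N', hN'⟩ := h'.ext
  obtain ⟨h1, h2⟩ := hN (max N N') (le_max_left _ _)
  obtain ⟨h3, h4⟩ := hN' (max N N') (le_max_right _ _)
  refine ⟨max N N', fun e he => ?_, ?_⟩
  · rw [Nat.testBit_xor] at he
    by_cases h5 : n.testBit e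
    · exact h1 e h5
    · exact h3 e (by simpa [h5] using he)
  · rw [h2, h4, ← sum_add_distrib]
    refine sum_congr rfl fun e _ => ?_
    rw [Nat.testBit_xor]
    cases n.testBit e <;> cases n'.testBit e <;> simp [CharTwo.add_self_eq_zero]

theorem Enc.shift {s t x y : F} {n d d' k : ℕ} (h : Enc s t n d x)
    (hk : ∀ e, e % 256 ≤ d → (k + e) % 256 ≤ d' ∧
      s ^ ((k + e) / 256) * t ^ ((k + e) % 256) = s ^ (e / 256) * t ^ (e % 256) * y) :
    Enc s t (n <<< k) d' (x * y) := by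
  obtain ⟨N, h1, h2⟩ := h
  refine ⟨k + N, fun e he => ?_, ?_⟩
  · simp only [Nat.testBit_shiftLeft, ge_iff_le, Bool.and_eq_true, decide_eq_true_eq] at he
    obtain ⟨e, rfl⟩ := Nat.exists_eq_add_of_le he.1
    rw [Nat.add_sub_cancel_left] at he
    exact ⟨by have := (h1 e he.2).1; omega, (hk e (h1 e he.2).2).1⟩
  · rw [sum_range_add, h2, sum_mul, sum_eq_zero (s := range k), zero_add]
    · refine sum_congr rfl fun e _ => ?_
      simp only [Nat.testBit_shiftLeft, ge_iff_le, le_add_iff_nonneg_right, zero_le, decide_true,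
        Nat.add_sub_cancel_left, Bool.true_and]
      split_ifs with h
      · exact (hk e (h1 e h).2).2.symm
      · exact zero_mul _
    · intro e he
      have := mem_range.mp he
      simp [Nat.testBit_shiftLeft, this.not_ge]

theorem Enc.ms {s t x : F} {n d : ℕ} (h : Enc s t n d x) : Enc s t (n <<< 256) d (x * s) :=
  h.shift fun e he => ⟨by omega, by
    rw [show (256 + e) / 256 = e / 256 + 1 by omega, show (256 + e) % 256 = e % 256 by omega]; ring⟩

theorem Enc.mt {s t x : F} {n d : ℕ} (hd : d + 1 < 256) (h : Enc s t n d x) :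
    Enc s t (n <<< 1) (d + 1) (x * t) :=
  h.shift fun e he => ⟨by omega, by
    rw [show (1 + e) / 256 = e / 256 by omega, show (1 + e) % 256 = e % 256 + 1 by omega]; ring⟩

/-- Multiplication without the third variable. -/
def run0 : Ex → ℕ → ℕ := run (· ^^^ ·) (· <<< 256) (· <<< 1) id

theorem Enc.run0 [CharP F 2] {s t x : F} {n d : ℕ} (e : Ex) (hd : d + dg 0 e < 256)
    (h : Enc s t n d x) : Enc s t (run0 e n) (d + dg 0 e) (x * den s t 1 e) :=
  run_sound (Enc s t) (fun _ _ _ _ => Enc.mono) (fun _ _ _ _ _ => Enc.xor) (fun _ _ _ => Enc.ms)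
    (fun _ _ _ => Enc.mt) (fun _ _ _ _ h => by simpa using h) e n d x hd h

/-- Multiplication modulo `Z² = E Z + G`. -/
def run1 (E G : Ex) : Ex → ℕ × ℕ → ℕ × ℕ :=
  run (fun p q => (p.1 ^^^ q.1, p.2 ^^^ q.2)) (fun p => (p.1 <<< 256, p.2 <<< 256))
    (fun p => (p.1 <<< 1, p.2 <<< 1)) (fun p => (run0 G p.2, p.1 ^^^ run0 E p.2))

theorem den_eq_zero [CharP F 2] {s t z : F} {E G e : Ex}
    (hz : z ^ 2 = den s t 1 E * z + den s t 1 G)
    (h : dg (max (dg 0 E) (dg 0 G)) e < 256 ∧ (run1 E G e (1, 0)).1 = 0 ∧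
      (run1 E G e (1, 0)).2 = 0) : den s t z e = 0 := by
  have h0 : ∀ d x, Enc s t 0 d x → x = 0 := by
    rintro d x ⟨N, -, h⟩
    simpa using h
  obtain ⟨x, y, h1, h2, h3⟩ := run_sound (s := s) (t := t) (z := z) (w := max (dg 0 E) (dg 0 G))
    (ad := fun p q => (p.1 ^^^ q.1, p.2 ^^^ q.2)) (ms := fun p => (p.1 <<< 256, p.2 <<< 256))
    (mt := fun p => (p.1 <<< 1, p.2 <<< 1)) (mz := fun p => (run0 G p.2, p.1 ^^^ run0 E p.2))
    (fun p d v => ∃ x y, Enc s t p.1 d x ∧ Enc s t p.2 d y ∧ v = x + y * z)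
    (fun _ _ _ _ hd ⟨x, y, a, b, c⟩ => ⟨x, y, a.mono hd, b.mono hd, c⟩)
    (fun _ _ _ _ _ ⟨x, y, a, b, c⟩ ⟨x', y', a', b', c'⟩ =>
      ⟨_, _, a.xor a', b.xor b', by rw [c, c']; ring⟩)
    (fun _ _ _ ⟨x, y, a, b, c⟩ => ⟨_, _, a.ms, b.ms, by rw [c]; ring⟩)
    (fun _ _ _ hd ⟨x, y, a, b, c⟩ => ⟨_, _, a.mt hd, b.mt hd, by rw [c]; ring⟩)
    (fun _ _ _ hd ⟨x, y, a, b, c⟩ => ⟨_, _, (b.run0 G (by omega)).mono (by omega),
      (a.mono (by omega)).xor ((b.run0 E (by omega)).mono (by omega)), by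
        rw [c]; linear_combination y * hz⟩)
    e (1, 0) 0 1 (by simpa using h.1)
    ⟨1, 0, ⟨1, fun e he => by simpa [Nat.testBit_one_eq_true_iff_self_eq_zero.mp he], by simp⟩,
      ⟨0, by simp, by simp⟩, by simp⟩
  rw [one_mul] at h3
  have e1 : Enc s t (run1 E G e (1, 0)).1 _ x := h1
  have e2 : Enc s t (run1 E G e (1, 0)).2 _ y := h2
  rw [h.2.1] at e1
  rw [h.2.2] at e2
  rw [h3, h0 _ _ e1, h0 _ _ e2, zero_mul, add_zero]

end Cfsg.Agent.NG.Bgk
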