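import Mathlib
import Cfsg.Agent.Cl.PSL2Solv
import Cfsg.Agent.Cl.Transport
import Cfsg.Agent.Cl.LinearBasic
import Cfsg.Agent.Chev.SzFpf
import Cfsg.Agent.Chev.SzLie
import Cfsg.Agent.GT.HallTools
import Cfsg.Agent.GT.MinNormal

/-!
# Triples of elements of pairwise coprime orders with trivial product
-/

set_option autoImplicit false
set_option linter.style.haveILetI false
set_option linter.unusedSectionVars false

namespace Cfsg.Agent.NG

open Cfsg.Agent.GT Subgroup MulAction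
open scoped MatrixGroups

universe u

/-- There are non-trivial elements of pairwise coprime orders with product `1`. -/
def Trip (G : Type*) [Group G] : Prop :=
  ∃ a b c : G, a ≠ 1 ∧ b ≠ 1 ∧ c ≠ 1 ∧ (orderOf a).Coprime (orderOf b) ∧
    (orderOf b).Coprime (orderOf c) ∧ (orderOf a).Coprime (orderOf c) ∧ a * b * c = 1

variable {G : Type*} [Group G]

theorem Trip.of_injective {H : Type*} [Group H] (h : Trip H) (f : H →* G)
    (hf : Function.Injective f) : Trip G := by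
  obtain ⟨a, b, c, h1, h2, h3, h4, h5, h6, h7⟩ := h
  refine ⟨f a, f b, f c, ?_, ?_, ?_, ?_, ?_, ?_, by rw [← map_mul, ← map_mul, h7, map_one]⟩ <;>
    simp only [ne_eq, map_eq_one_iff f hf, orderOf_injective f hf] <;> assumption

theorem trip_of_dvd {a b c : G} {l m n : ℕ} (h1 : a ≠ 1) (h2 : b ≠ 1) (h3 : c ≠ 1)
    (ha : orderOf a ∣ l) (hb : orderOf b ∣ m) (hc : orderOf c ∣ n) (h4 : l.Coprime m)
    (h5 : m.Coprime n) (h6 : l.Coprime n) (h7 : a * b * c = 1) : Trip G :=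
  ⟨a, b, c, h1, h2, h3, Nat.Coprime.coprime_dvd_left ha (h4.coprime_dvd_right hb),
    Nat.Coprime.coprime_dvd_left hb (h5.coprime_dvd_right hc),
    Nat.Coprime.coprime_dvd_left ha (h6.coprime_dvd_right hc), h7⟩

variable [Finite G]

theorem not_trip [Group.IsSolvable G] : ¬ Trip G := by
  rintro ⟨a, b, c, h1, -, -, h4, h5, h6, h7⟩
  let H := closure ({a, b, c} : Set G)
  have ha : a ∈ H := subset_closure (by simp)
  have hb : b ∈ H := subset_closure (by simp)
  have hc : c ∈ H := subset_closure (by simp)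
  haveI : Nontrivial H := ⟨⟨⟨a, ha⟩, 1, fun e => h1 (congrArg Subtype.val e)⟩⟩
  obtain ⟨K, _, hK⟩ := HT.exists_normal_index_prime H
  have key : ∀ x : H, ¬ K.index ∣ orderOf (x : G) → x ∈ K := fun x hx => by
    have h8 := orderOf_map_dvd (QuotientGroup.mk' K) x
    rcases (Nat.dvd_prime hK).1 (orderOf_dvd_natCard (QuotientGroup.mk' K x)) with e | e
    · exact (QuotientGroup.eq_one_iff x).1 (orderOf_eq_one_iff.1 e)
    · exact absurd (by rwa [e, ← orderOf_coe] at h8) hx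
  have hn : ∀ {x y : G}, (orderOf x).Coprime (orderOf y) → K.index ∣ orderOf x →
      ¬ K.index ∣ orderOf y := fun h e e' => hK.ne_one (Nat.eq_one_of_dvd_coprimes h e e')
  have h8 : (⟨a, ha⟩ * ⟨b, hb⟩ * ⟨c, hc⟩ : H) ∈ K := by
    rw [show (⟨a, ha⟩ * ⟨b, hb⟩ * ⟨c, hc⟩ : H) = 1 from Subtype.ext h7]; exact one_mem _
  have h9 : (⟨a, ha⟩ : H) ∈ K ∧ (⟨b, hb⟩ : H) ∈ K ∧ (⟨c, hc⟩ : H) ∈ K := by
    by_cases e : K.index ∣ orderOf a
    · have h2 := key ⟨b, hb⟩ (hn h4 e)
      have h3 := key ⟨c, hc⟩ (hn h6 e)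
      exact ⟨(mul_mem_cancel_right h2).1 ((mul_mem_cancel_right h3).1 h8), h2, h3⟩
    have h2 := key ⟨a, ha⟩ e
    by_cases e' : K.index ∣ orderOf b
    · have h3 := key ⟨c, hc⟩ (hn h5 e')
      exact ⟨h2, (mul_mem_cancel_left h2).1 ((mul_mem_cancel_right h3).1 h8), h3⟩
    have h3 := key ⟨b, hb⟩ e'
    exact ⟨h2, h3, (mul_mem_cancel_left (mul_mem h2 h3)).1 h8⟩
  have h10 : H ≤ K.map H.subtype := (closure_le _).2 (by
    rintro x (rfl | rfl | rfl)
    exacts [⟨_, h9.1, rfl⟩, ⟨_, h9.2.1, rfl⟩, ⟨_, h9.2.2, rfl⟩])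
  refine hK.ne_one (index_eq_one.2 (eq_top_iff.2 fun x _ => ?_))
  obtain ⟨y, hy, e⟩ := h10 x.2
  exact (Subtype.ext e : y = x) ▸ hy

theorem Trip.of_quotient_pgroup {r : ℕ} (hr : r.Prime) {V : Subgroup G} [V.Normal]
    (hV : IsPGroup r V) (h : Trip (G ⧸ V)) : Trip G := by
  have h0 : ∀ y : G, ∃ k, orderOf y ∣ orderOf (y : G ⧸ V) * r ^ k := fun y => by
    obtain ⟨k, hk⟩ := hV ⟨y ^ orderOf (y : G ⧸ V), (QuotientGroup.eq_one_iff _).1 (by
      rw [QuotientGroup.mk_pow, pow_orderOf_eq_one])⟩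
    exact ⟨k, orderOf_dvd_of_pow_eq_one (by rw [pow_mul]; exact congrArg Subtype.val hk)⟩
  have h1 : ∀ x : G ⧸ V, (orderOf x).Coprime r → ∃ y : G, y = x ∧ orderOf y ∣ orderOf x := by
    intro x hx
    obtain ⟨y, rfl⟩ := QuotientGroup.mk_surjective x
    obtain ⟨k, hk⟩ := h0 y
    obtain ⟨m, hm⟩ := exists_pow_eq_self_of_coprime (x := (y : G ⧸ V)) (hx.symm.pow_left k)
    refine ⟨(y ^ r ^ k) ^ m, by simpa using hm, orderOf_dvd_of_pow_eq_one ?_⟩
    rw [← pow_mul, mul_comm m, pow_mul, ← pow_mul y, mul_comm,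
      orderOf_dvd_iff_pow_eq_one.1 hk, one_pow]
  have key : ∀ a b c : G ⧸ V, a ≠ 1 → b ≠ 1 → c ≠ 1 → (orderOf a).Coprime (orderOf b) →
      (orderOf b).Coprime (orderOf c) → (orderOf a).Coprime (orderOf c) → a * b * c = 1 →
      ¬ r ∣ orderOf a → ¬ r ∣ orderOf b → Trip G := fun a b c h2 h3 h4 h5 h6 h7 h8 ha hb => by
    replace ha := (hr.coprime_iff_not_dvd.2 ha).symm
    replace hb := (hr.coprime_iff_not_dvd.2 hb).symm
    obtain ⟨a, rfl, ha'⟩ := h1 a ha
    obtain ⟨b, rfl, hb'⟩ := h1 b hb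
    obtain rfl : (((a * b)⁻¹ : G) : G ⧸ V) = c := (eq_inv_of_mul_eq_one_right h8).symm
    obtain ⟨k, hk⟩ := h0 (a * b)⁻¹
    exact trip_of_dvd (fun e => h2 (by simp [e])) (fun e => h3 (by simp [e]))
      (fun e => h4 (by rw [e]; rfl)) ha' hb' hk h5 (h6.mul_right (hb.pow_right k))
      (h7.mul_right (ha.pow_right k)) (mul_inv_cancel _)
  obtain ⟨a, b, c, h2, h3, h4, h5, h6, h7, h8⟩ := h
  have h9 : b * c * a = 1 := mul_eq_one_comm.1 (by rwa [← mul_assoc])
  have h10 : c * a * b = 1 := by rw [mul_assoc]; exact mul_eq_one_comm.1 h8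
  have hn : ∀ {x y : G ⧸ V}, (orderOf x).Coprime (orderOf y) → r ∣ orderOf x → ¬ r ∣ orderOf y :=
    fun h e e' => hr.ne_one (Nat.eq_one_of_dvd_coprimes h e e')
  by_cases e : r ∣ orderOf a
  · exact key b c a h3 h4 h2 h6 h7.symm h5.symm h9 (hn h5 e) (hn h7 e)
  by_cases e' : r ∣ orderOf b
  · exact key c a b h4 h2 h3 h7.symm h5 h6.symm h10 (hn h6 e') e
  exact key a b c h2 h3 h4 h5 h6 h7 h8 e e'

theorem Trip.of_quotient {G : Type u} [Group G] [Finite G] {N : Subgroup G} [N.Normal]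
    (hN : Group.IsSolvable N) (h : Trip (G ⧸ N)) : Trip G := by
  induction hn : Nat.card G using Nat.strong_induction_on generalizing G with
  | _ n ih =>
  rcases eq_or_ne N ⊥ with rfl | h1
  · exact h.of_injective _ QuotientGroup.quotientBot.injective
  haveI := (nontrivial_iff_ne_bot N).2 h1
  obtain ⟨r, hr, h2⟩ := exists_pCore_ne_bot N
  haveI := Fact.mk hr
  let V := (pCore r N).map N.subtype
  have hle : V ≤ N := map_subtype_le _
  refine Trip.of_quotient_pgroup hr (V := V) ((isPGroup_pCore (G := N) r).map _)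
    (ih _ ?_ (N := N.map (QuotientGroup.mk' V)) (Group.isSolvable_of_surjective
      (MonoidHom.subgroupMap_surjective _ N))
      (h.of_injective _ (QuotientGroup.quotientQuotientEquivQuotient V N hle).symm.injective) rfl)
  rw [← hn, ← V.card_mul_index]
  exact lt_mul_left (Nat.pos_of_ne_zero index_ne_zero_of_finite) ((one_lt_card_iff_ne_bot _).2 fun e => h2
    ((map_eq_bot_iff_of_injective _ N.subtype_injective).1 e))

/-- In a simple Zassenhaus group some product `u * c` of a non-trivial element of a Frobenius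
kernel and a fixed point free element fixes two points. -/
theorem exists_two_fix [IsSimpleGroup G] {X : Type*} [Finite X] [MulAction G X] [Nontrivial X]
    (U : X → Subgroup G) (h1 : ∀ x, Nat.card (U x) + 1 = Nat.card X)
    (h2 : ∀ (g : G) x, ∀ u ∈ U x, g * u * g⁻¹ ∈ U (g • x))
    (h3 : ∀ {x y z : X}, x ≠ y → x ≠ z → ∃ u ∈ U x, u • y = z)
    (h4 : ∀ (g : G) (x : X), g • x = x → (∀ y, g • y = y → y = x) → ∃ y, g ∈ U y)
    (h5 : ∃ x, U x ≠ ⊥) {c : G} (hc : ∀ x : X, c • x ≠ x) :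
    ∃ x, ∃ u ∈ U x, u ≠ 1 ∧ ∃ y z : X, y ≠ z ∧ (u * c) • y = y ∧ (u * c) • z = z := by
  classical
  by_contra! h
  let T : Set G := {u | u ≠ 1 ∧ ∃ x, u ∈ U x}
  have hT : ∀ g, ∀ t ∈ T, g * t * g⁻¹ ∈ T := fun g t ⟨h6, x, h7⟩ =>
    ⟨by simpa using h6, _, h2 g x t h7⟩
  have h6 : ∀ t ∈ T, t * c ∈ T := by
    rintro t ⟨ht, x, hx⟩
    choose f hf hf' using fun y : ({x, c⁻¹ • x}ᶜ : Set X) => h3 (x := x) (y := c • y.1) (z := y.1)
      (fun e => y.2 (.inr (eq_inv_smul_iff.2 e.symm))) fun e => y.2 (.inl e.symm)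
    have hf1 : ∀ y, f y ≠ 1 := fun y e => hc y.1 (by simpa [e] using hf' y)
    obtain ⟨y, hy⟩ := ((Nat.bijective_iff_injective_and_card (fun y => (⟨⟨f y, hf y⟩, fun e =>
      hf1 y (congrArg Subtype.val e)⟩ : ({1}ᶜ : Set (U x))))).2 ⟨fun y z e => Subtype.ext (by
        by_contra h7
        replace e : f y = f z := congrArg (fun s => s.1.1) e
        exact h x _ (hf y) (hf1 y) _ _ h7 (by rw [mul_smul, hf']) (by rw [mul_smul, e, hf'])), by
      have h7 := Set.ncard_add_ncard_compl ({x, c⁻¹ • x} : Set X)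
      have h8 := Set.ncard_add_ncard_compl ({1} : Set (U x))
      rw [Set.ncard_pair fun e => hc x (smul_eq_iff_eq_inv_smul c |>.2 e)] at h7
      rw [Set.ncard_singleton] at h8
      have := h1 x
      rw [Nat.card_coe_set_eq, Nat.card_coe_set_eq]
      omega⟩).2 ⟨⟨t, hx⟩, fun e => ht (congrArg Subtype.val e)⟩
    replace hy : f y = t := congrArg (fun s => s.1.1) hy
    have h7 : (t * c) • y.1 = y.1 := by rw [mul_smul, ← hy, hf']
    obtain ⟨z, hz⟩ := exists_ne y.1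
    exact ⟨fun e => h x t hx ht _ _ hz (by rw [e, one_smul]) h7,
      h4 _ _ h7 fun w hw => by_contra fun e => h x t hx ht _ _ e hw h7⟩
  let K : Subgroup G :=
    { carrier := {g | ∀ t ∈ T, t * g ∈ T}
      one_mem' := fun t ht => by simpa using ht
      mul_mem' := fun ha hb t ht => mul_assoc t _ _ ▸ hb _ (ha t ht)
      inv_mem' := fun {g} hg t ht => by
        obtain ⟨n, hn⟩ := mem_powers_iff_mem_zpowers.2 (inv_mem (mem_zpowers g))
        rw [← hn]
        clear hn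
        induction n with
        | zero => simpa using ht
        | succ n ih => simpa only [pow_succ, mul_assoc] using hg _ ih }
  have hK : K.Normal := ⟨fun g hg a t ht => by
    simpa [mul_assoc] using hT a _ (hg _ (hT a⁻¹ t ht))⟩
  obtain ⟨x, hx⟩ := h5
  obtain ⟨⟨t, ht⟩, h7⟩ := ne_bot_iff_exists_ne_one.1 hx
  rcases hK.eq_bot_or_eq_top with e | e
  · exact hc x (by rw [mem_bot.1 (e.le (show c ∈ K from h6)), one_smul])
  · exact ((e.ge (mem_top t⁻¹)) t ⟨fun e => h7 (Subtype.ext e), x, ht⟩).1 (mul_inv_cancel t)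

open Cl.L2 in
theorem trip_psl2 {F : Type*} [Field F] [Finite F] (h : 4 ≤ Nat.card F) : Trip PSL(2, F) := by
  haveI := isSimpleGroup_PSL h
  haveI : Nontrivial (P1 F) := ⟨⟨_, _, inf_ne_pt 0⟩⟩
  obtain ⟨p, hp⟩ := CharP.exists F
  haveI := Fact.mk (CharP.char_is_prime F p)
  obtain ⟨c, hc, hc'⟩ := exists_nofixS (F := F)
  obtain ⟨x, u, hu, h1, y, z, h2, h3, h4⟩ := exists_two_fix (G := PSL(2, F)) uniS
    (fun x => by rw [card_uniS, card_P1]) (fun g x u hu => by rw [uniS_smul]; exact ⟨u, hu, rfl⟩)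
    exists_uniS_smul (fun g x h1 h2 => exists_mem_uniS (by
      by_contra h3
      obtain ⟨y, h4, h5⟩ := exists_second_fix h3 ((emb_smul g x).trans h1)
      exact h4 (h2 y ((emb_smul g y).symm.trans h5)).symm))
    ⟨inf, ne_bot_iff_exists_ne_one.2 ((exists_ne_one_mem_uniS inf).elim fun u hu =>
      ⟨⟨u, hu.1⟩, fun e => hu.2 (congrArg Subtype.val e)⟩)⟩ hc
  have h5 : u * c ≠ 1 := fun e => hc x (by
    rw [eq_inv_of_mul_eq_one_right e, inv_smul_eq_iff, uniS_le_stabilizer x hu])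
  have h6 := card_torS_mul_of_fix (tau_ne_four_of_two_fix (emb_ne_one.2 h5) h2
    ((emb_smul _ y).trans h3) ((emb_smul _ z).trans h4)) h3
  have h7 := char_dvd_card (F := F) p
  have h8 : ∀ n, n ∣ Nat.card F - 1 ∨ n ∣ Nat.card F + 1 → p.Coprime n := fun n hn =>
    (Nat.Prime.coprime_iff_not_dvd Fact.out).2 fun e => (Fact.out : p.Prime).ne_one (by
      rcases hn with hn | hn
      · exact Nat.eq_one_of_dvd_coprimes ((Nat.coprime_self_sub_right (by omega)).2
          (Nat.coprime_one_right _)) h7 (e.trans hn)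
      · exact Nat.eq_one_of_dvd_one ((Nat.dvd_add_right h7).1 (e.trans hn)))
  refine trip_of_dvd h1 (fun e => hc x (by rw [e, one_smul])) (inv_ne_one.2 h5)
    (orderOf_of_mem_uniS p hu h1).dvd dvd_rfl
    ((orderOf_inv _).dvd.trans (orderOf_dvd_natCard _ (self_mem_torS _)))
    (h8 _ (.inr (Dvd.intro _ hc'))) ?_ (h8 _ (.inl (Dvd.intro _ h6))) (mul_inv_cancel _)
  generalize orderOf c = a at *
  generalize Nat.card (torS (u * c)) = b at *
  rcases (Nat.dvd_prime Nat.prime_two).1 (Nat.gcd_dvd_left 2 (Nat.card F - 1)) with e | e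
  · have h9 : Odd b := by
      rw [e] at h6
      exact Nat.coprime_two_left.1 (by rwa [← h6, mul_one] at e)
    rw [e] at hc' h6
    rw [show a = 2 + b by omega, Nat.coprime_add_self_left]
    exact Nat.coprime_two_left.2 h9
  · rw [e] at hc' h6
    rw [show a = 1 + b by omega, Nat.coprime_add_self_left]
    exact Nat.coprime_one_left _

open Chev.Sz in
theorem trip_sz {F : Type*} [Field F] {m : ℕ} [SzF F m] : Trip (Cfsg.Sz F m) := by
  have h8 := eight_le_card F
  obtain ⟨p, hp, hp'⟩ := Nat.exists_prime_and_dvd (n := Nat.card F ^ 2 + 1) (by nlinarith)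
  haveI := Fact.mk hp
  obtain ⟨c, hc⟩ := exists_prime_orderOf_dvd_card' (G := Cfsg.Sz F m) p (by
    rw [card_Sz]; exact (hp'.mul_left _).mul_right _)
  have hc1 : c ≠ 1 := fun e => hp.ne_one (by rw [← hc, e, orderOf_one])
  have hf := fpf_of_orderOf_dvd hc1 (hc ▸ hp')
  obtain ⟨x, u, hu, h1, y, z, h2, h3, h4⟩ := exists_two_fix (G := Cfsg.Sz F m) sylAt
    (fun x => by rw [card_sylAt, card_ov])
    (fun g x u hu => by rw [← map_conj_sylAt]; exact ⟨u, hu, rfl⟩)
    (fun h1 h2 => exists_mem_sylAt_smul h1.symm h2.symm) (fun g x h1 h2 => by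
      rcases trichotomy' g with h | ⟨P, Q, h3, h4⟩ | h
      · exact h
      · exact absurd ((h2 P h4.1).trans (h2 Q h4.2).symm) h3
      · exact absurd h1 (h x))
    ⟨inf, (one_lt_card_iff_ne_bot _).1 (by rw [card_sylAt]; nlinarith)⟩ hf
  have h5 : u * c ≠ 1 := fun e => hf x (by
    rw [eq_inv_of_mul_eq_one_right e, inv_smul_eq_iff, hu.1])
  exact trip_of_dvd h1 hc1 (inv_ne_one.2 h5) (orderOf_dvd_of_pow_eq_one (n := 2 ^ 2) hu.2)
    hf.orderOf_dvd ((orderOf_inv _).dvd.trans (orderOf_dvd_of_pow_eq_one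
      (pow_eq_one_of_mem_torAt h2 ⟨h3, h4⟩)))
    ((Nat.coprime_two_left.2 (odd_card_sq_add_one F)).pow_left 2)
    (coprime_sub_one_sq_add_one F).symm ((Nat.coprime_two_left.2 (odd_card_sub_one F)).pow_left 2)
    (mul_inv_cancel _)

theorem trip_sl33 : Trip SL(3, ZMod 3) :=
  trip_of_dvd (a := ⟨!![0, 1, 2; 2, 1, 1; 1, 1, 1], by decide⟩)
    (b := ⟨!![0, 1, 0; 0, 0, 1; 1, 0, 0], by decide⟩) (l := 2) (m := 3)
    (n := 13) (fun e => absurd (congrArg Subtype.val e) (by decide))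
    (fun e => absurd (congrArg Subtype.val e) (by decide))
    (inv_ne_one.2 fun e => absurd (congrArg Subtype.val e) (by decide))
    (orderOf_dvd_of_pow_eq_one (Subtype.ext (by decide)))
    (orderOf_dvd_of_pow_eq_one (Subtype.ext (by decide))) ((orderOf_inv _).dvd.trans
      (orderOf_dvd_of_pow_eq_one (Subtype.ext (by decide +kernel)))) (by norm_num)
    (by norm_num) (by norm_num) (mul_inv_cancel _)

theorem trip_psl33 {F : Type*} [Field F] [Fintype F] (h : Fintype.card F = 3) :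
    Trip PSL(3, F) := by
  obtain ⟨e⟩ := Cl.nonempty_ringEquiv_zmod 3 h
  exact trip_sl33.of_injective ((Cl.pslEquivSL (by simp; decide)).symm.trans
    (Cl.pslMapEquiv (Fin 3) e.symm)).toMonoidHom (MulEquiv.injective _)

end Cfsg.Agent.NG
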